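import Cfsg.Agent.MetanilpPrim.FixedBound

/-!
# The average fixed point space is at most half

A finite group `G` acts on a finite abelian group `U`, and a normal subgroup `A` induces an abelian
group of exponent dividing the prime `r`, with `r` prime to `|U|` and without fixed points.  Then
`∏ |C_U(g)| ^ 2 ≤ |U| ^ |G|`.
-/

set_option autoImplicit false
set_option linter.style.haveILetI false
set_option linter.unusedSectionVars false

namespace CfsgLib.MetanilpPrim

open Finset

variable {G U : Type*} [Group G] [CommGroup U] [MulDistribMulAction G U]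

/-- The elements fixed by all of `B`. -/
def fixAll (U : Type*) [CommGroup U] [MulDistribMulAction G U] (B : Subgroup G) : Subgroup U :=
  ⨅ b : B, fix U (b : G)

@[simp] theorem mem_fixAll {B : Subgroup G} {u : U} : u ∈ fixAll U B ↔ ∀ b ∈ B, b • u = u := by
  simp [fixAll, Subgroup.mem_iInf]

theorem fixAll_le_of_mem_sup {B : Subgroup G} {x : G} {u : U} (hB : u ∈ fixAll U B)
    (hx : x • u = u) : u ∈ fixAll U (B ⊔ Subgroup.zpowers x) := by
  rw [mem_fixAll] at hB ⊢
  intro b hb
  have hle : B ⊔ Subgroup.zpowers x ≤ MulAction.stabilizer G u :=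
    sup_le (fun c hc => MulAction.mem_stabilizer_iff.2 (hB c hc))
      (Subgroup.zpowers_le.2 (MulAction.mem_stabilizer_iff.2 hx))
  exact MulAction.mem_stabilizer_iff.1 (hle hb)

/-- A subgroup of `A` which, together with any further element of `A`, generates `A`. -/
structure IsMaxIn (A A₀ K : Subgroup G) : Prop where
  le : K ≤ A
  kernel : A₀ ≤ K
  ne : K ≠ A
  sup_eq : ∀ x ∈ A, x ∉ K → K ⊔ Subgroup.zpowers x = A

/-- The product of the translates of `u` under the first `r` powers of `x`. -/
def normPow (r : ℕ) (x : G) (u : U) : U := ∏ i ∈ Finset.range r, x ^ i • u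

theorem smul_normPow (r : ℕ) (x : G) (u : U) (hx : x ^ r • u = u) :
    x • normPow r x u = normPow r x u := by
  have h1 := Finset.prod_range_succ' (fun i => x ^ i • u) r
  have h2 := Finset.prod_range_succ (fun i => x ^ i • u) r
  rw [h2, hx, pow_zero, one_smul, mul_left_inj] at h1
  rw [normPow, Finset.smul_prod']
  conv_rhs => rw [h1]
  exact Finset.prod_congr rfl fun i _ => by rw [pow_succ', mul_smul]

section

variable [Finite G] [Finite U] (r : ℕ) [hr : Fact r.Prime] (A : Subgroup G)

/-- `U` is generated by the fixed points of the maximal subgroups of `A`. -/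
theorem fixAll_le_iSup (hcomm : ∀ a ∈ A, ∀ b ∈ A, ∀ u : U, a • b • u = b • a • u)
    (hexp : ∀ a ∈ A, ∀ u : U, a ^ r • u = u) (hcop : (Nat.card U).Coprime r)
    (hfix : ∀ u : U, (∀ a ∈ A, a • u = u) → u = 1) (A₀ : Subgroup G) :
    ∀ (n : ℕ) (B : Subgroup G), B ≤ A → A₀ ≤ B → Nat.card A - Nat.card B ≤ n →
      fixAll U B ≤ ⨆ K : {K : Subgroup G // IsMaxIn A A₀ K}, fixAll U (K : Subgroup G) := by
  intro n
  induction n with
  | zero =>
    intro B hBA _ hn u hu
    have hBA' : B = A := Subgroup.eq_of_le_of_card_ge hBA (by omega)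
    subst hBA'
    rw [hfix u (mem_fixAll.1 hu)]
    exact one_mem _
  | succ n ih =>
    intro B hBA hA₀ hn u hu
    by_cases hBA' : B = A
    · subst hBA'
      rw [hfix u (mem_fixAll.1 hu)]
      exact one_mem _
    by_cases hmax : IsMaxIn A A₀ B
    · exact le_iSup (fun K : {K : Subgroup G // IsMaxIn A A₀ K} => fixAll U (K : Subgroup G))
        ⟨B, hmax⟩ hu
    obtain ⟨a, haA, haB, hne⟩ : ∃ a ∈ A, a ∉ B ∧ B ⊔ Subgroup.zpowers a ≠ A := by
      by_contra hcon
      push Not at hcon
      exact hmax ⟨hBA, hA₀, hBA', hcon⟩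
    obtain ⟨b, hbA, hb⟩ := SetLike.exists_of_lt
      (lt_of_le_of_ne (sup_le hBA (Subgroup.zpowers_le.2 haA)) hne)
    set W : Subgroup U := ⨆ K : {K : Subgroup G // IsMaxIn A A₀ K}, fixAll U (K : Subgroup G)
    -- an element fixed by `B` and by `x ∉ B` lies in `W`
    have hstep : ∀ x ∈ A, x ∉ B → ∀ v : U, v ∈ fixAll U B → x • v = v → v ∈ W := by
      intro x hxA hxB v hv hxv
      refine ih (B ⊔ Subgroup.zpowers x) (sup_le hBA (Subgroup.zpowers_le.2 hxA))
        (hA₀.trans le_sup_left) ?_ (fixAll_le_of_mem_sup hv hxv)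
      have hlt : B < B ⊔ Subgroup.zpowers x :=
        lt_of_le_of_ne le_sup_left fun e => hxB (e ▸ le_sup_right (a := B) (Subgroup.mem_zpowers x))
      have h1 : Nat.card B < Nat.card (B ⊔ Subgroup.zpowers x : Subgroup G) := by
        by_contra hh
        exact hlt.ne (Subgroup.eq_of_le_of_card_ge hlt.le (by omega))
      omega
    have hBfix : ∀ x ∈ A, ∀ v : U, v ∈ fixAll U B → x • v ∈ fixAll U B := by
      intro x hxA v hv
      rw [mem_fixAll] at hv ⊢
      intro c hc
      rw [hcomm c (hBA hc) x hxA, hv c hc]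
    have hnorm : ∀ x ∈ A, ∀ v : U, v ∈ fixAll U B →
        normPow r x v ∈ fixAll U B ∧ x • normPow r x v = normPow r x v := fun x hxA v hv =>
      ⟨Subgroup.prod_mem _ fun i _ => hBfix _ (pow_mem hxA i) v hv,
        smul_normPow r x v (hexp x hxA v)⟩
    -- the product of all the norms
    have key : ∏ i ∈ Finset.range r, normPow r (b * a ^ i) u =
        u ^ r * ∏ j ∈ Finset.Ico 1 r, b ^ j • normPow r (a ^ j) u := by
      have hpow : ∀ (i j : ℕ) (v : U), (b * a ^ i) ^ j • v = b ^ j • (a ^ j) ^ i • v := by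
        intro i j
        induction j with
        | zero => intro v; simp
        | succ j ihj =>
          intro v
          have hc : ∀ (m : ℕ), ∀ y ∈ A, ∀ w : U, b ^ m • y • w = y • b ^ m • w := fun m y hy w =>
            hcomm _ (pow_mem hbA m) _ hy w
          rw [pow_succ', mul_smul, mul_smul, ihj, ← hc j _ (pow_mem haA i), ← mul_smul b,
            ← pow_succ', ← mul_smul (a ^ i), ← pow_mul, ← pow_mul, ← pow_add]
          congr 3
          ring
      rw [show (∏ i ∈ Finset.range r, normPow r (b * a ^ i) u) =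
          ∏ j ∈ Finset.range r, b ^ j • normPow r (a ^ j) u by
        simp only [normPow, Finset.smul_prod', hpow]
        exact Finset.prod_comm]
      rw [Finset.range_eq_Ico]
      rw [show Finset.Ico 0 r = insert 0 (Finset.Ico 1 r) by
        ext x; simp only [Finset.mem_Ico, Finset.mem_insert]; have := hr.out.pos; omega,
        Finset.prod_insert (by simp)]
      simp [normPow]
    have hur : u ^ r ∈ W := by
      have h1 : ∏ i ∈ Finset.range r, normPow r (b * a ^ i) u ∈ W := by
        refine Subgroup.prod_mem _ fun i _ => ?_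
        have hxA : b * a ^ i ∈ A := mul_mem hbA (pow_mem haA i)
        refine hstep _ hxA (fun hx => hb ?_) _ (hnorm _ hxA u hu).1 (hnorm _ hxA u hu).2
        have h3 := mul_mem (le_sup_left (b := Subgroup.zpowers a) hx)
          (inv_mem (pow_mem (le_sup_right (a := B) (Subgroup.mem_zpowers a)) i))
        rwa [mul_inv_cancel_right] at h3
      have h2 : ∏ j ∈ Finset.Ico 1 r, b ^ j • normPow r (a ^ j) u ∈ W := by
        refine Subgroup.prod_mem _ fun j hj => ?_
        rw [Finset.mem_Ico] at hj
        have hxA : a ^ j ∈ A := pow_mem haA j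
        obtain ⟨h3, h4⟩ := hnorm _ hxA u hu
        have h5 : a • normPow r (a ^ j) u = normPow r (a ^ j) u := by
          have d1 := MulAction.pow_smul_eq_iff_period_dvd.1 h4
          have d2 := MulAction.pow_smul_eq_iff_period_dvd.1 (hexp a haA (normPow r (a ^ j) u))
          have d3 := MulAction.pow_smul_eq_iff_period_dvd (m := a) (a := normPow r (a ^ j) u) (n := 1)
          rw [pow_one] at d3
          have hnd : ¬ r ∣ j := fun hd => by
            have := Nat.le_of_dvd (by omega) hd
            omega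
          exact d3.2 (by rw [Nat.eq_one_of_dvd_coprimes
            ((Nat.Prime.coprime_iff_not_dvd hr.out).2 hnd) d2 d1])
        refine hstep a haA haB _ (hBfix _ (pow_mem hbA j) _ h3) ?_
        rw [hcomm a haA _ (pow_mem hbA j), h5]
      have h6 := W.mul_mem h1 (W.inv_mem h2)
      rwa [key, mul_inv_cancel_right] at h6
    have hc2 : (Nat.card U).Coprime r := hcop
    obtain ⟨m, hm⟩ := exists_pow_eq_self_of_coprime
      (Nat.Coprime.coprime_dvd_right (orderOf_dvd_natCard u) hc2.symm)
    rw [← hm]
    exact pow_mem hur m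

/-- The fixed points of different maximal subgroups are independent. -/
theorem independent_fixAll (hfix : ∀ u : U, (∀ a ∈ A, a • u = u) → u = 1)
    (hcomm : ∀ a ∈ A, ∀ b ∈ A, ∀ u : U, a • b • u = b • a • u) (A₀ : Subgroup G) :
    ∀ (s : Finset {K : Subgroup G // IsMaxIn A A₀ K})
      (u : {K : Subgroup G // IsMaxIn A A₀ K} → U),
      (∀ K : {K : Subgroup G // IsMaxIn A A₀ K}, u K ∈ fixAll U (K : Subgroup G)) → ∏ K ∈ s, u K = 1 → ∀ K ∈ s, u K = 1 := by
  classical
  intro s
  induction s using Finset.induction_on with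
  | empty => simp
  | @insert J s hJ ih =>
    intro u hu hprod
    have hrest : ∀ K ∈ s, u K = 1 := by
      intro K hK
      have hJK : ¬ (J : Subgroup G) ≤ K := by
        intro hle
        refine hJ (?_ : J ∈ s)
        have : J = K := by
          refine Subtype.ext (le_antisymm hle fun x hx => ?_)
          by_contra hxJ
          refine K.2.ne (le_antisymm K.2.le ?_)
          conv_lhs => rw [← J.2.sup_eq x (K.2.le hx) hxJ]
          exact sup_le hle (Subgroup.zpowers_le.2 hx)
        rwa [this]
      obtain ⟨k, hkJ, hkK⟩ := SetLike.not_le_iff_exists.1 hJK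
      have hfixJ : ∀ k ∈ (J : Subgroup G), k • u K = u K := by
        intro k hk
        set w : {K : Subgroup G // IsMaxIn A A₀ K} → U := fun L => disp U k (u L)
        have hw : ∀ L : {K : Subgroup G // IsMaxIn A A₀ K}, w L ∈ fixAll U (L : Subgroup G) := by
          intro L
          refine (fixAll U (L : Subgroup G)).div_mem ?_ (hu L)
          rw [mem_fixAll]
          intro c hc
          rw [hcomm c (L.2.le hc) k (J.2.le hk), mem_fixAll.1 (hu L) c hc]
        have hwprod : ∏ L ∈ s, w L = 1 := by
          have h1 := congrArg (disp U k) hprod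
          rw [map_prod, map_one, Finset.prod_insert hJ,
            show disp U k (u J) = 1 from div_eq_one.2 (mem_fixAll.1 (hu J) k hk), one_mul] at h1
          exact h1
        exact div_eq_one.1 (ih w hw hwprod K hK)
      refine hfix _ fun a ha => ?_
      have h1 := fixAll_le_of_mem_sup (hu K) (hfixJ k hkJ)
      rw [K.2.sup_eq k (J.2.le hkJ) hkK] at h1
      exact mem_fixAll.1 h1 a ha
    intro K hK
    rcases Finset.mem_insert.1 hK with rfl | hK
    · rwa [Finset.prod_insert hJ, Finset.prod_eq_one hrest, mul_one] at hprod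
    · exact hrest K hK

variable [Fintype G]

/-- **The average of the fixed point spaces is at most half.** -/
theorem prod_card_fix_sq_le [hA : A.Normal]
    (hcomm : ∀ a ∈ A, ∀ b ∈ A, ∀ u : U, a • b • u = b • a • u)
    (hexp : ∀ a ∈ A, ∀ u : U, a ^ r • u = u) (hcop : (Nat.card U).Coprime r)
    (hfix : ∀ u : U, (∀ a ∈ A, a • u = u) → u = 1) :
    ∏ g : G, Nat.card (fix U g) ^ 2 ≤ Nat.card U ^ Fintype.card G := by
  classical
  set A₀ : Subgroup G := A ⊓ ⨅ u : U, MulAction.stabilizer G u with hA₀
  have memA₀ : ∀ x, x ∈ A₀ ↔ x ∈ A ∧ ∀ u : U, x • u = u := by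
    intro x
    simp [hA₀, Subgroup.mem_inf, Subgroup.mem_iInf, MulAction.mem_stabilizer_iff]
  let ι := {K : Subgroup G // IsMaxIn A A₀ K}
  haveI : Fintype ι := Fintype.ofFinite _
  -- conjugation permutes the maximal subgroups
  have hmap : ∀ (g : G) (K : Subgroup G), IsMaxIn A A₀ K →
      IsMaxIn A A₀ (K.map (MulAut.conj g).toMonoidHom) := by
    intro g K hK
    have hAg : A.map (MulAut.conj g).toMonoidHom = A := by
      ext y
      rw [Subgroup.mem_map_equiv, MulAut.conj_symm_apply]
      exact ⟨fun h => by simpa [mul_assoc] using hA.conj_mem _ h g,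
        fun h => by simpa [mul_assoc] using hA.conj_mem _ h g⁻¹⟩
    refine ⟨hAg ▸ Subgroup.map_mono hK.le, fun x hx => ?_, fun e => hK.ne ?_, fun x hx hxK => ?_⟩
    · rw [Subgroup.mem_map_equiv, MulAut.conj_symm_apply]
      refine hK.kernel ((memA₀ _).2 ?_)
      rw [memA₀] at hx
      refine ⟨by simpa [mul_assoc] using hA.conj_mem _ hx.1 g⁻¹, fun u => ?_⟩
      rw [mul_smul, mul_smul, hx.2, inv_smul_smul]
    · exact Subgroup.map_injective (f := (MulAut.conj g).toMonoidHom) (MulAut.conj g).injective
        (e.trans hAg.symm)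
    · rw [Subgroup.mem_map_equiv] at hxK
      have hx' : (MulAut.conj g).symm x ∈ A := by
        rw [← hAg, Subgroup.mem_map_equiv] at hx
        exact hx
      have h1 := congrArg (Subgroup.map (MulAut.conj g).toMonoidHom) (hK.sup_eq _ hx' hxK)
      rw [hAg, Subgroup.map_sup, MonoidHom.map_zpowers] at h1
      simpa [mul_assoc] using h1
  let σf : G → ι → ι := fun g K => ⟨(K : Subgroup G).map (MulAut.conj g).toMonoidHom, hmap g K K.2⟩
  have hσinj : ∀ g, Function.Injective (σf g) := fun g K L h => Subtype.ext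
    (Subgroup.map_injective (f := (MulAut.conj g).toMonoidHom) (MulAut.conj g).injective
      (congrArg Subtype.val h))
  let σ : G → Equiv.Perm ι := fun g =>
    Equiv.ofBijective (σf g) (Finite.injective_iff_bijective.1 (hσinj g))
  let V : ι → Subgroup U := fun K => fixAll U (K : Subgroup G)
  have hσV : ∀ (g : G) (K : ι) (u : U), g • u ∈ V (σ g K) ↔ u ∈ V K := by
    intro g K u
    simp only [V, mem_fixAll]
    constructor
    · intro h b hb
      have := h (g * b * g⁻¹) ⟨b, hb, rfl⟩
      rwa [mul_smul, mul_smul, inv_smul_smul, smul_left_cancel_iff] at this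
    · rintro h _ ⟨b, hb, rfl⟩
      show (g * b * g⁻¹) • g • u = g • u
      rw [mul_smul, mul_smul, inv_smul_smul, h b hb]
  -- the decomposition
  have hdec : ∀ u : U, ∃ w : ι → U, (∀ K, w K ∈ V K) ∧ ∏ K, w K = u := by
    intro u
    have hu : u ∈ ⨆ K : ι, V K := fixAll_le_iSup r A hcomm hexp hcop hfix A₀ _ A₀
      (inf_le_left) le_rfl le_rfl (mem_fixAll.2 fun b hb => ((memA₀ b).1 hb).2 u)
    refine Subgroup.iSup_induction (C := fun u => ∃ w : ι → U, (∀ K, w K ∈ V K) ∧ ∏ K, w K = u)
      V hu (fun K v hv => ?_) ⟨fun _ => 1, fun K => one_mem _, by simp⟩ ?_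
    · refine ⟨Pi.mulSingle K v, fun L => ?_, by simp⟩
      by_cases hL : L = K
      · subst hL; simpa using hv
      · simp [hL]
    · rintro x y ⟨w, hw, rfl⟩ ⟨w', hw', rfl⟩
      exact ⟨fun K => w K * w' K, fun K => mul_mem (hw K) (hw' K), Finset.prod_mul_distrib⟩
  choose comp hcompV hcompP using hdec
  have huniq : ∀ (u : U) (w : ι → U), (∀ K, w K ∈ V K) → ∏ K, w K = u → w = comp u := by
    intro u w hw hwu
    funext K
    exact div_eq_one.1 (independent_fixAll A hfix hcomm A₀ Finset.univ (fun K => w K / comp u K)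
      (fun K => Subgroup.div_mem _ (hw K) (hcompV u K))
      (by rw [Finset.prod_div_distrib, hwu, hcompP, div_self']) K (Finset.mem_univ K))
  have hcardU : Nat.card U = ∏ K, Nat.card (V K) := by
    rw [← Nat.card_pi]
    refine (Nat.card_congr (Equiv.ofBijective
      (fun w : ∀ K, V K => ∏ K, (w K : U)) ⟨fun a b hab => ?_, fun u => ?_⟩)).symm
    · have h1 := huniq _ (fun K => (a K : U)) (fun K => (a K).2) rfl
      have h2 := huniq _ (fun K => (b K : U)) (fun K => (b K).2) rfl
      simp only at hab
      rw [hab] at h1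
      funext K
      exact Subtype.ext (congrFun (h1.trans h2.symm) K)
    · exact ⟨fun K => ⟨comp u K, hcompV u K⟩, hcompP u⟩
  -- a bound for one element
  let f : G → ι → ℕ := fun g K =>
    if σ g K = K then Nat.card (fix U g ⊓ V K : Subgroup U) ^ 2 else Nat.card (V K)
  have hone : ∀ g : G, Nat.card (fix U g) ^ 2 ≤ ∏ K, f g K := by
    intro g
    set e := Fintype.equivFin ι
    set F : Finset ι := Finset.univ.filter fun K => σ g K = K
    set M : Finset ι := Finset.univ.filter fun K => σ g K ≠ K
    set T : Finset ι := M.filter fun K => ∀ L, (σ g).SameCycle K L → e K ≤ e L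
    have hcomp_g : ∀ u ∈ fix U g, ∀ K, comp u (σ g K) = g • comp u K := by
      intro u hu K
      have h1 := huniq u (fun L => g • comp u ((σ g).symm L)) (fun L => by
        have := (hσV g ((σ g).symm L) _).2 (hcompV u ((σ g).symm L))
        rwa [Equiv.apply_symm_apply] at this) (by
        rw [← Finset.smul_prod', Equiv.prod_comp (σ g).symm (fun L => comp u L), hcompP]
        exact hu)
      have h2 := congrFun h1 (σ g K)
      simp only [Equiv.symm_apply_apply] at h2
      exact h2.symm
    have hcover : ∀ L ∈ M, ∃ K ∈ T, (σ g).SameCycle K L := by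
      intro L hL
      obtain ⟨K, hK, hmin⟩ := Finset.exists_min_image
        (Finset.univ.filter fun K => (σ g).SameCycle K L) e
        ⟨L, Finset.mem_filter.2 ⟨Finset.mem_univ _, Equiv.Perm.SameCycle.refl _ _⟩⟩
      rw [Finset.mem_filter] at hK
      refine ⟨K, Finset.mem_filter.2 ⟨Finset.mem_filter.2 ⟨Finset.mem_univ _, fun h => ?_⟩,
        fun L' hL' => hmin L' (Finset.mem_filter.2 ⟨Finset.mem_univ _, hL'.symm.trans hK.2⟩)⟩, hK.2⟩
      exact (Finset.mem_filter.1 hL).2 (hK.2.apply_eq_self_iff.1 h)
    have hinj : Nat.card (fix U g) ≤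
        (∏ K ∈ T, Nat.card (V K)) * ∏ K ∈ F, Nat.card (fix U g ⊓ V K : Subgroup U) := by
      rw [← Finset.prod_coe_sort T, ← Finset.prod_coe_sort F, ← Nat.card_pi, ← Nat.card_pi,
        ← Nat.card_prod]
      refine Nat.card_le_card_of_injective (fun u : fix U g =>
        ((fun K : T => (⟨comp u K, hcompV _ _⟩ : V (K : ι))),
          fun K : F => (⟨comp u K, by
            refine ⟨?_, hcompV _ _⟩
            have h := hcomp_g u u.2 K
            rw [(Finset.mem_filter.1 K.2).2] at h
            exact h.symm⟩ : (fix U g ⊓ V (K : ι) : Subgroup U)))) fun a b hab => ?_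
      simp only [Prod.mk.injEq, funext_iff, Subtype.ext_iff] at hab
      have heq : ∀ L, comp (a : U) L = comp (b : U) L := by
        intro L
        by_cases hL : σ g L = L
        · exact hab.2 ⟨L, Finset.mem_filter.2 ⟨Finset.mem_univ _, hL⟩⟩
        obtain ⟨K, hK, hKL⟩ := hcover L (Finset.mem_filter.2 ⟨Finset.mem_univ _, hL⟩)
        obtain ⟨i, -, rfl⟩ := hKL.exists_pow_eq'
        clear hL hKL
        induction i with
        | zero => exact hab.1 ⟨K, hK⟩
        | succ i ihi =>
          rw [pow_succ', Equiv.Perm.mul_apply, hcomp_g a a.2, hcomp_g b b.2, ihi]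
      exact Subtype.ext (by rw [← hcompP (a : U), ← hcompP (b : U), funext heq])
    have hTsq : (∏ K ∈ T, Nat.card (V K)) ^ 2 ≤ ∏ K ∈ M, Nat.card (V K) := by
      have hcard : ∀ K, Nat.card (V (σ g K)) = Nat.card (V K) := fun K =>
        (Nat.card_congr
          { toFun := fun x : V K => (⟨g • (x : U), (hσV g K _).2 x.2⟩ : V (σ g K))
            invFun := fun y => ⟨g⁻¹ • (y : U), (hσV g K _).1 (by rw [smul_inv_smul]; exact y.2)⟩
            left_inv := fun x => Subtype.ext (inv_smul_smul g _)
            right_inv := fun y => Subtype.ext (smul_inv_smul g _) }).symm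
      rw [pow_two]
      nth_rw 2 [← Finset.prod_congr rfl fun K _ => hcard K]
      rw [← Finset.prod_image (f := fun K => Nat.card (V K)) (g := σ g)
        (fun a _ b _ h => (σ g).injective h), ← Finset.prod_union]
      · refine Finset.prod_le_prod_of_subset_of_one_le' ?_ fun K _ _ => Nat.card_pos
        refine Finset.union_subset (Finset.filter_subset _ _) fun L hL => ?_
        obtain ⟨K, hK, rfl⟩ := Finset.mem_image.1 hL
        exact Finset.mem_filter.2 ⟨Finset.mem_univ _, fun h =>
          (Finset.mem_filter.1 (Finset.mem_filter.1 hK).1).2 ((σ g).injective h)⟩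
      · rw [Finset.disjoint_left]
        intro L hL hL'
        obtain ⟨K, hK, rfl⟩ := Finset.mem_image.1 hL'
        have h1 : (σ g).SameCycle K (σ g K) := ⟨1, by simp⟩
        have h2 := (Finset.mem_filter.1 hK).2 _ h1
        have h3 := (Finset.mem_filter.1 hL).2 K h1.symm
        exact (Finset.mem_filter.1 (Finset.mem_filter.1 hK).1).2 (e.injective (le_antisymm h3 h2))
    calc Nat.card (fix U g) ^ 2 ≤ _ := Nat.pow_le_pow_left hinj 2
      _ ≤ (∏ K ∈ M, Nat.card (V K)) * ∏ K ∈ F, Nat.card (fix U g ⊓ V K : Subgroup U) ^ 2 := by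
        rw [mul_pow, Finset.prod_pow F 2]
        exact Nat.mul_le_mul_right _ hTsq
      _ = ∏ K, f g K := by
        rw [mul_comm]
        simp only [f]
        rw [Finset.prod_ite]
  have hA_K : ∀ (K : ι), ∀ a ∈ A, σ a K = K := by
    intro K a ha
    apply Subtype.ext
    refine Subgroup.eq_of_le_of_card_ge ?_
      (le_of_eq (Subgroup.card_map_of_injective (f := (MulAut.conj a).toMonoidHom)
        (MulAut.conj a).injective).symm)
    rintro _ ⟨k, hk, rfl⟩
    show a * k * a⁻¹ ∈ (K : Subgroup G)
    have h0 : a * k * a⁻¹ * k⁻¹ ∈ A₀ := by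
      refine (memA₀ _).2 ⟨mul_mem (hA.conj_mem _ (K.2.le hk) a) (inv_mem (K.2.le hk)), fun u => ?_⟩
      rw [mul_smul, mul_smul, mul_smul, ← hcomm (k⁻¹) (inv_mem (K.2.le hk)) a⁻¹ (inv_mem ha),
        smul_inv_smul, smul_inv_smul]
    simpa using mul_mem (K.2.kernel h0) hk
  have hper : ∀ K, ∏ g : G, f g K ≤ Nat.card (V K) ^ Fintype.card G := by
    intro K
    obtain ⟨a₀, ha₀, ha₀K⟩ : ∃ a ∈ A, a ∉ (K : Subgroup G) :=
      SetLike.exists_of_lt (lt_of_le_of_ne K.2.le K.2.ne)
    have hσmul : ∀ g, σ (g * a₀) K = σ g K := by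
      intro g
      conv_rhs => rw [← hA_K K a₀ ha₀]
      apply Subtype.ext
      show (K : Subgroup G).map _ = ((K : Subgroup G).map _).map _
      rw [Subgroup.map_map]
      congr 1
      ext x
      simp [mul_assoc]
    have hpair : ∀ g, f g K * f (g * a₀) K ≤ Nat.card (V K) ^ 2 := by
      intro g
      simp only [f, hσmul]
      split_ifs with h
      · rw [← mul_pow]
        refine Nat.pow_le_pow_left ?_ 2
        rw [← Nat.card_prod]
        refine Nat.card_le_card_of_injective (fun x => (⟨(x.1 : U) * x.2, mul_mem x.1.2.2 x.2.2.2⟩ : V K))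
          fun x y hxy => ?_
        have hxy' := congrArg Subtype.val hxy
        simp only at hxy'
        have hd : (x.1 : U) / y.1 = (y.2 : U) / x.2 := by
          rw [div_eq_div_iff_mul_eq_mul, mul_comm (y.2 : U)]
          exact hxy'
        have h1 : (x.1 : U) / y.1 ∈ fix U g ⊓ V K := Subgroup.div_mem _ x.1.2 y.1.2
        have h2 : (x.1 : U) / y.1 ∈ fix U (g * a₀) ⊓ V K := hd ▸ Subgroup.div_mem _ y.2.2 x.2.2
        have h3 : a₀ • ((x.1 : U) / y.1) = (x.1 : U) / y.1 := by
          have e1 : g • ((x.1 : U) / y.1) = (x.1 : U) / y.1 := h1.1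
          have e2 : (g * a₀) • ((x.1 : U) / y.1) = (x.1 : U) / y.1 := h2.1
          rw [mul_smul] at e2
          exact smul_left_cancel g (e2.trans e1.symm)
        have h4 := fixAll_le_of_mem_sup h1.2 h3
        rw [K.2.sup_eq a₀ ha₀ ha₀K] at h4
        have h5 := hfix _ (mem_fixAll.1 h4)
        refine Prod.ext (Subtype.ext (div_eq_one.1 h5)) (Subtype.ext ?_)
        exact (div_eq_one.1 (hd ▸ h5)).symm
      · rw [← pow_two]
    have h1 : (∏ g : G, f g K) ^ 2 ≤ (Nat.card (V K) ^ Fintype.card G) ^ 2 := by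
      rw [pow_two]
      nth_rw 2 [← Fintype.prod_equiv (Equiv.mulRight a₀) (fun g => f (g * a₀) K) (fun g => f g K)
        fun g => rfl]
      rw [← Finset.prod_mul_distrib, ← pow_mul, mul_comm, pow_mul]
      refine (Finset.prod_le_prod' fun g _ => hpair g).trans ?_
      rw [Finset.prod_const, Finset.card_univ]
    exact (Nat.pow_le_pow_iff_left (by norm_num)).1 h1
  calc ∏ g : G, Nat.card (fix U g) ^ 2 ≤ ∏ g : G, ∏ K, f g K :=
        Finset.prod_le_prod' fun g _ => hone g
    _ = ∏ K, ∏ g : G, f g K := Finset.prod_comm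
    _ ≤ ∏ K, Nat.card (V K) ^ Fintype.card G := Finset.prod_le_prod' fun K _ => hper K
    _ = _ := by rw [Finset.prod_pow, hcardU]

end

end CfsgLib.MetanilpPrim
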