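import Mathlib

/-!
# A `q`-group without fixed points has an element with few fixed points

If a finite `q`-group `Q` acts on a finite abelian group `V` and fixes only `1`, then the orders
of the fixed point groups satisfy `∏ |C_V(h)| ^ q ≤ |V| ^ |Q|`; so some `h` has `|C_V(h)| ^ q ≤ |V|`.
-/

set_option autoImplicit false
set_option linter.style.haveILetI false
set_option linter.unusedSectionVars false

namespace CfsgLib.MetanilpPrim

open Finset

variable {Q V : Type*} [Group Q] [CommGroup V] [MulDistribMulAction Q V]

/-- The elements fixed by `h`. -/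
def fix (V : Type*) [CommGroup V] [MulDistribMulAction Q V] (h : Q) : Subgroup V where
  carrier := {v | h • v = v}
  one_mem' := smul_one h
  mul_mem' := fun {a b} (ha : h • a = a) (hb : h • b = b) => by
    show h • (a * b) = a * b
    rw [smul_mul', ha, hb]
  inv_mem' := fun {a} (ha : h • a = a) => by
    show h • a⁻¹ = a⁻¹
    rw [smul_inv', ha]

@[simp] theorem mem_fix {h : Q} {v : V} : v ∈ fix V h ↔ h • v = v := Iff.rfl

/-- `v ↦ (h • v) / v`. -/
def disp (V : Type*) [CommGroup V] [MulDistribMulAction Q V] (h : Q) : V →* V where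
  toFun v := h • v / v
  map_one' := by rw [smul_one, div_one]
  map_mul' a b := by rw [smul_mul', mul_div_mul_comm]

@[simp] theorem disp_apply (h : Q) (v : V) : disp V h v = h • v / v := rfl

variable [Finite Q] [Finite V]

theorem exists_central_on (q : ℕ) [hq : Fact q.Prime] (hQ : IsPGroup q Q) (U : Subgroup V)
    (hU : ∀ h : Q, ∀ u ∈ U, h • u ∈ U) (hne : ∃ h : Q, ∃ u ∈ U, h • u ≠ u) :
    ∃ z : Q, (∃ u ∈ U, z • u ≠ u) ∧ (∀ u ∈ U, z ^ q • u = u) ∧
      ∀ h : Q, ∀ u ∈ U, z • h • u = h • z • u := by
  classical
  set K : Subgroup Q :=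
    ⨅ u : {u : V // u ∈ U}, MulAction.stabilizer Q (u : V) with hKdef
  have hK : ∀ h : Q, h ∈ K ↔ ∀ u ∈ U, h • u = u := by
    intro h
    simp only [hKdef, Subgroup.mem_iInf, MulAction.mem_stabilizer_iff, Subtype.forall]
  haveI : K.Normal := by
    refine ⟨fun k hk s => ?_⟩
    rw [hK] at hk ⊢
    intro u hu
    rw [mul_smul, mul_smul, hk _ (hU _ u hu), smul_inv_smul]
  haveI : Nontrivial (Q ⧸ K) := by
    obtain ⟨h, u, hu, hne⟩ := hne
    refine QuotientGroup.nontrivial_iff.2 fun htop => hne ?_
    exact (hK h).1 (htop ▸ Subgroup.mem_top h) u hu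
  have hq' := hQ.to_quotient K
  haveI := hq'.center_nontrivial
  obtain ⟨c, hc⟩ := exists_prime_orderOf_dvd_card' q
    (G := Subgroup.center (Q ⧸ K)) (by
      obtain ⟨n, hn⟩ := IsPGroup.iff_card.1 (hq'.to_subgroup (Subgroup.center (Q ⧸ K)))
      rcases Nat.eq_zero_or_pos n with rfl | hn0
      · exact absurd hn (by rw [pow_zero]; exact (Finite.one_lt_card).ne')
      · rw [hn]; exact dvd_pow_self q hn0.ne')
  obtain ⟨z, hz⟩ := QuotientGroup.mk_surjective (c : Q ⧸ K)
  refine ⟨z, ?_, ?_, ?_⟩
  · by_contra hcon
    push Not at hcon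
    have h1 : c = 1 := Subtype.ext (by
      rw [← hz, OneMemClass.coe_one, QuotientGroup.eq_one_iff, hK]; exact hcon)
    rw [h1, orderOf_one] at hc
    exact hq.out.ne_one hc.symm
  · refine (hK _).1 ?_
    rw [← QuotientGroup.eq_one_iff, QuotientGroup.mk_pow, hz, ← Subgroup.coe_pow, ← hc,
      pow_orderOf_eq_one, OneMemClass.coe_one]
  · intro h u hu
    have h1 : (h * z)⁻¹ * (z * h) ∈ K := by
      rw [← QuotientGroup.eq, QuotientGroup.mk_mul, QuotientGroup.mk_mul, hz]
      exact Subgroup.mem_center_iff.1 c.2 (h : Q ⧸ K)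
    have h2 := (hK _).1 h1 u hu
    rw [mul_smul, inv_smul_eq_iff, mul_smul, mul_smul] at h2
    exact h2

/-- The fixed points of `h` in `U`. -/
def fixIn (U : Subgroup V) (h : Q) : Subgroup V := U ⊓ fix V h

theorem disp_range_lt (U : Subgroup V) (z : Q) :
    Nat.card (U.map (disp V z)) * Nat.card (fixIn U z) = Nat.card U := by
  have h1 := Subgroup.card_mul_index ((disp V z).comp U.subtype).ker
  rw [Subgroup.index_ker, MonoidHom.range_comp, Subgroup.range_subtype, mul_comm] at h1
  rw [← h1]
  congr 1
  refine Nat.card_congr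
    { toFun := fun x => ⟨⟨x.1, x.2.1⟩, by
        rw [MonoidHom.mem_ker]
        show z • (x : V) / x = 1
        rw [(x.2.2 : z • (x : V) = x), div_self']⟩
      invFun := fun y => ⟨y.1.1, y.1.2, by
        have := y.2
        rw [MonoidHom.mem_ker] at this
        exact div_eq_one.1 this⟩
      left_inv := fun _ => rfl
      right_inv := fun _ => rfl }

/-- The counting lemma, relative to an invariant subgroup. -/
theorem prod_card_fixIn_le (q : ℕ) [hq : Fact q.Prime] [Fintype Q] (hQ : IsPGroup q Q)
    (hfree : ∀ v : V, (∀ h : Q, h • v = v) → v = 1) :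
    ∀ (n : ℕ) (U : Subgroup V), Nat.card U ≤ n → (∀ h : Q, ∀ u ∈ U, h • u ∈ U) →
      ∏ h : Q, Nat.card (fixIn U h) ^ q ≤ Nat.card U ^ Fintype.card Q := by
  classical
  intro n
  induction n with
  | zero => intro U hU; exact absurd hU (by have := Nat.card_pos (α := U); omega)
  | succ n ih =>
    intro U hn hU
    by_cases hU1 : U = ⊥
    · subst hU1
      refine le_of_eq ?_
      simp [fixIn]
    have hne : ∃ h : Q, ∃ u ∈ U, h • u ≠ u := by
      by_contra hcon
      push Not at hcon
      exact hU1 ((Subgroup.eq_bot_iff_forall _).2 fun u hu => hfree u fun h => hcon h u hu)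
    obtain ⟨z, hz, hzq, hzc⟩ := exists_central_on q hQ U hU hne
    have hWinv : ∀ h : Q, ∀ u ∈ fixIn U z, h • u ∈ fixIn U z := fun h u hu =>
      ⟨hU h u hu.1, by show z • h • u = h • u; rw [hzc h u hu.1, (hu.2 : z • u = u)]⟩
    by_cases hW : fixIn U z = ⊥
    · -- `z` is fixed-point-free
      have hfp : ∀ d : ℕ, ¬ q ∣ d → ∀ u ∈ U, z ^ d • u = u → u = 1 := by
        intro d hd u hu he
        have h1 : MulAction.period z u ∣ d := MulAction.pow_smul_eq_iff_period_dvd.1 he
        have h2 : MulAction.period z u ∣ q := MulAction.pow_smul_eq_iff_period_dvd.1 (hzq u hu)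
        have h3 : MulAction.period z u = 1 :=
          Nat.eq_one_of_dvd_coprimes ((Nat.Prime.coprime_iff_not_dvd hq.out).2 hd) h2 h1
        have h4 : z • u = u := by
          have := MulAction.pow_smul_eq_iff_period_dvd (m := z) (a := u) (n := 1)
          rw [pow_one] at this
          exact this.2 (by rw [h3])
        have h5 : u ∈ fixIn U z := ⟨hu, h4⟩
        rwa [hW, Subgroup.mem_bot] at h5
      have hzpowc : ∀ (i : ℕ) (h : Q), ∀ u ∈ U, z ^ i • h • u = h • z ^ i • u := by
        intro i h
        induction i with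
        | zero => simp
        | succ i ihi =>
          intro u hu
          rw [pow_succ', mul_smul, ihi u hu, hzc h _ (hU _ u hu), mul_smul]
      have hind : ∀ (h : Q) (s : Finset (Fin q)) (u : Fin q → V),
          (∀ i : Fin q, u i ∈ fixIn U (h * z ^ (i : ℕ))) → ∏ i ∈ s, u i = 1 → ∀ i ∈ s, u i = 1 := by
        intro h s
        induction s using Finset.induction_on with
        | empty => simp
        | @insert j s hj ihs =>
          intro u hu hprod
          set w : Fin q → V := fun i => disp V (h * z ^ (j : ℕ)) (u i) with hw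
          have hwmem : ∀ i : Fin q, w i ∈ fixIn U (h * z ^ (i : ℕ)) := by
            intro i
            have hu1 := (hu i).1
            refine ⟨U.div_mem (hU _ _ hu1) hu1, ?_⟩
            show (h * z ^ (i : ℕ)) • ((h * z ^ (j : ℕ)) • u i / u i) = _
            rw [smul_div']
            have hfi : (h * z ^ (i : ℕ)) • u i = u i := (hu i).2
            rw [hfi]
            congr 1
            conv_rhs => rw [← hfi]
            simp only [mul_smul]
            rw [hzpowc i h _ (hU _ _ hu1), ← mul_smul (z ^ (i:ℕ)) (z ^ (j:ℕ)),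
              ← mul_smul (z ^ (j:ℕ)) h, mul_smul (z ^ (j:ℕ)) h,
              hzpowc j h _ (hU _ _ hu1), ← pow_add, add_comm (i:ℕ), pow_add, mul_smul]
          have hwprod : ∏ i ∈ s, w i = 1 := by
            have h1 := congrArg (disp V (h * z ^ (j : ℕ))) hprod
            rw [map_prod, map_one, Finset.prod_insert hj] at h1
            rw [show disp V (h * z ^ (j : ℕ)) (u j) = 1 from div_eq_one.2 (hu j).2, one_mul] at h1
            exact h1
          have hrest : ∀ i ∈ s, u i = 1 := by
            intro i hi
            have hij : (i : ℕ) ≠ j := fun e => hj (Fin.ext e ▸ hi)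
            have hj' : (h * z ^ (j : ℕ)) • u i = u i := div_eq_one.1 (ihs w hwmem hwprod i hi)
            have hi' : (h * z ^ (i : ℕ)) • u i = u i := (hu i).2
            have he : z ^ (i : ℕ) • u i = z ^ (j : ℕ) • u i := by
              have := hi'.trans hj'.symm
              rwa [mul_smul, mul_smul, smul_left_cancel_iff] at this
            rcases lt_or_gt_of_ne hij with hlt | hlt
            · refine hfp ((j : ℕ) - i) (fun hd => ?_) _ (hu i).1 ?_
              · have := Nat.le_of_dvd (by omega) hd
                have := j.2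
                omega
              · rw [← smul_left_cancel_iff (z ^ (i : ℕ)), ← mul_smul, ← pow_add,
                  Nat.add_sub_cancel' hlt.le]
                exact he.symm
            · refine hfp ((i : ℕ) - j) (fun hd => ?_) _ (hu i).1 ?_
              · have := Nat.le_of_dvd (by omega) hd
                have := i.2
                omega
              · rw [← smul_left_cancel_iff (z ^ (j : ℕ)), ← mul_smul, ← pow_add,
                  Nat.add_sub_cancel' hlt.le]
                exact he
          intro i hi
          rcases Finset.mem_insert.1 hi with rfl | hi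
          · rwa [Finset.prod_insert hj, Finset.prod_eq_one hrest, mul_one] at hprod
          · exact hrest i hi
      have hcoset : ∀ h : Q, ∏ i : Fin q, Nat.card (fixIn U (h * z ^ (i : ℕ))) ≤ Nat.card U := by
        intro h
        rw [← Nat.card_pi]
        refine Nat.card_le_card_of_injective
          (fun u => (⟨∏ i, (u i : V), U.prod_mem fun i _ => (u i).2.1⟩ : U)) fun a b hab => ?_
        funext i
        apply Subtype.ext
        have h1 := hind h Finset.univ (fun i => (a i : V) / b i)
          (fun i => Subgroup.div_mem _ (a i).2 (b i).2) (by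
            rw [Finset.prod_div_distrib, div_eq_one]
            exact congrArg Subtype.val hab) i (Finset.mem_univ i)
        exact div_eq_one.1 h1
      calc ∏ h : Q, Nat.card (fixIn U h) ^ q
          = ∏ i : Fin q, ∏ h : Q, Nat.card (fixIn U (h * z ^ (i : ℕ))) := by
            have : ∀ i : Fin q, ∏ h : Q, Nat.card (fixIn U (h * z ^ (i : ℕ))) =
                ∏ h : Q, Nat.card (fixIn U h) := fun i =>
              Fintype.prod_equiv (Equiv.mulRight (z ^ (i : ℕ))) _ _ fun h => rfl
            rw [Finset.prod_congr rfl fun i _ => this i, Finset.prod_const, Finset.card_univ,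
              Fintype.card_fin, Finset.prod_pow]
        _ = ∏ h : Q, ∏ i : Fin q, Nat.card (fixIn U (h * z ^ (i : ℕ))) := Finset.prod_comm
        _ ≤ ∏ _h : Q, Nat.card U := Finset.prod_le_prod' fun h _ => hcoset h
        _ = _ := by rw [Finset.prod_const, Finset.card_univ]
    · -- split along the fixed points of `z`
      set R : Subgroup V := U.map (disp V z) with hR
      have hRinv : ∀ h : Q, ∀ u ∈ R, h • u ∈ R := by
        rintro h _ ⟨v, hv, rfl⟩
        refine ⟨h • v, hU h v hv, ?_⟩
        rw [disp_apply, disp_apply, smul_div', hzc h v hv]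
      have hcard := disp_range_lt U z
      rw [← hR] at hcard
      have hW1 : 1 < Nat.card (fixIn U z) :=
        (Subgroup.one_lt_card_iff_ne_bot _).2 hW
      have hR1 : 1 < Nat.card R := by
        refine (Subgroup.one_lt_card_iff_ne_bot _).2 fun hR0 => ?_
        obtain ⟨u, hu, hne'⟩ := hz
        have h1 : disp V z u ∈ R := ⟨u, hu, rfl⟩
        rw [hR0, Subgroup.mem_bot, disp_apply, div_eq_one] at h1
        exact hne' h1
      have hlt1 : Nat.card R < Nat.card U := by
        rw [← hcard]; exact lt_mul_of_one_lt_right (by omega) hW1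
      have hlt2 : Nat.card (fixIn U z) < Nat.card U := by
        rw [← hcard]; exact lt_mul_of_one_lt_left (by omega) hR1
      have e1 := ih R (by omega) hRinv
      have e2 := ih (fixIn U z) (by omega) hWinv
      have hle : ∀ h : Q, Nat.card (fixIn U h) ≤
          Nat.card (fixIn R h) * Nat.card (fixIn (fixIn U z) h) := by
        intro h
        rw [← disp_range_lt (fixIn U h) z]
        refine Nat.mul_le_mul (Subgroup.card_le_of_le ?_) (Subgroup.card_le_of_le ?_)
        · rintro _ ⟨v, hv, rfl⟩
          refine ⟨⟨v, hv.1, rfl⟩, ?_⟩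
          show h • (z • v / v) = z • v / v
          rw [smul_div', ← hzc h v hv.1, (hv.2 : h • v = v)]
        · exact fun v hv => ⟨⟨hv.1.1, hv.2⟩, hv.1.2⟩
      calc ∏ h : Q, Nat.card (fixIn U h) ^ q
          ≤ ∏ h : Q, (Nat.card (fixIn R h) ^ q * Nat.card (fixIn (fixIn U z) h) ^ q) :=
            Finset.prod_le_prod' fun h _ => by
              rw [← mul_pow]; exact Nat.pow_le_pow_left (hle h) q
        _ = _ := Finset.prod_mul_distrib
        _ ≤ Nat.card R ^ Fintype.card Q * Nat.card (fixIn U z) ^ Fintype.card Q :=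
            Nat.mul_le_mul e1 e2
        _ = _ := by rw [← mul_pow, hcard]

/-- A `q`-group fixing only `1` in a finite abelian group has an element with few fixed points. -/
theorem exists_card_fix_sq_le (q : ℕ) [hq : Fact q.Prime] (hQ : IsPGroup q Q)
    (hfree : ∀ v : V, (∀ h : Q, h • v = v) → v = 1) :
    ∃ h : Q, Nat.card (fix V h) ^ 2 ≤ Nat.card V := by
  classical
  have := Fintype.ofFinite Q
  have h1 := prod_card_fixIn_le q hQ hfree (Nat.card V) ⊤ (by simp) (fun _ _ _ => trivial)
  by_contra hcon
  push Not at hcon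
  have h2 : ∀ h : Q, Nat.card V < Nat.card (fixIn (⊤ : Subgroup V) h) ^ q := by
    intro h
    rw [fixIn, top_inf_eq]
    exact lt_of_lt_of_le (hcon h) (Nat.pow_le_pow_right Nat.card_pos hq.out.two_le)
  have h3 := Finset.prod_lt_prod_of_nonempty (s := (Finset.univ : Finset Q))
    (f := fun _ => Nat.card V) (fun _ _ => Nat.card_pos) (fun h _ => h2 h) Finset.univ_nonempty
  rw [Finset.prod_const, Finset.card_univ] at h3
  rw [Subgroup.card_top] at h1
  omega

end CfsgLib.MetanilpPrim
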