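import Cfsg.Agent.MetanilpPrim.FixedBound

/-!
# An element moving both layers of a metanilpotent group

`G` is a `{p, q}`-group all of whose abelian normal subgroups are central, `P` is a normal
`p`-subgroup on which the normal subgroup `N` acts trivially modulo `Z(P)`, and `G / N` is nilpotent.
Then some `q`-element `h` has the property that every product `h * k` with a `p`-element `k`
satisfies `|P : C_P(hk)| ^ 2 ≥ |P : Z(P)|`.
-/

set_option autoImplicit false
set_option linter.style.haveILetI false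
set_option linter.unusedSectionVars false

namespace CfsgLib.MetanilpPrim

open Subgroup
open scoped Pointwise commutatorElement

variable {G : Type*} [Group G] [Finite G]

/-- A `p`-subgroup normalising a non-trivial `p`-subgroup centralises a non-trivial element of it. -/
theorem exists_centralised {p : ℕ} [hp : Fact p.Prime] {S A : Subgroup G} (hS : IsPGroup p S)
    (hA : IsPGroup p A) (hA1 : A ≠ ⊥) (hSA : S ≤ Subgroup.normalizer (A : Set G)) :
    ∃ a ∈ A, a ≠ 1 ∧ ∀ s ∈ S, s * a = a * s := by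
  letI : MulAction S A :=
    MulAction.compHom A (Subgroup.inclusion hSA)
  have hdvd : p ∣ Nat.card A := by
    obtain ⟨n, hn⟩ := IsPGroup.iff_card.1 hA
    rcases Nat.eq_zero_or_pos n with rfl | h0
    · exact absurd (Subgroup.card_eq_one.1 (by simpa using hn)) hA1
    · rw [hn]; exact dvd_pow_self p h0.ne'
  have hval : ∀ (s : S) (a : A), ((s • a : A) : G) = (s : G) * a * (s : G)⁻¹ := fun _ _ => rfl
  obtain ⟨b, hb, hne⟩ := hS.exists_fixed_point_of_prime_dvd_card_of_fixed_point A hdvd (a := 1)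
    (fun s => Subtype.ext (by rw [hval]; simp))
  refine ⟨b, b.2, fun h => hne (Subtype.ext h.symm), fun s hs => ?_⟩
  have h1 := congrArg Subtype.val (hb ⟨s, hs⟩)
  rw [hval] at h1
  exact mul_inv_eq_iff_eq_mul.1 h1

/-- If every abelian normal subgroup is central, a normal `p`-subgroup has class at most two. -/
theorem commutator_le_center {p : ℕ} [hp : Fact p.Prime] (P : Subgroup G) [hPn : P.Normal]
    (hP : IsPGroup p P)
    (hab : ∀ A : Subgroup G, A.Normal → IsMulCommutative A → A ≤ Subgroup.center G) :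
    ⁅P, P⁆ ≤ Subgroup.center G := by
  set Z : Subgroup G := Subgroup.center G with hZ
  set D : Subgroup G := ⁅P, P⁆ with hD
  haveI : D.Normal := Subgroup.commutator_normal P P
  have hDP : D ≤ P := Subgroup.commutator_le_left P P
  by_contra hne
  set π := QuotientGroup.mk' Z
  have hDb : D.map π ≠ ⊥ := by
    rw [Ne, Subgroup.map_eq_bot_iff, QuotientGroup.ker_mk']
    exact hne
  obtain ⟨a, haD, ha1, hac⟩ := exists_centralised (p := p) (hP.map π) ((hP.to_le hDP).map π) hDb
    (by haveI := (inferInstance : D.Normal).map π (QuotientGroup.mk'_surjective Z); rw [Subgroup.normalizer_eq_top (H := D.map π)]; exact le_top)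
  obtain ⟨x, hx, rfl⟩ := haD
  -- the subgroup of all such elements is abelian normal
  set A : Subgroup G := D ⊓ ((Subgroup.centralizer ((P.map π : Subgroup (G ⧸ Z)) : Set (G ⧸ Z))).comap π)
    with hA
  haveI : (P.map π).Normal := hPn.map π (QuotientGroup.mk'_surjective Z)
  haveI : A.Normal := Subgroup.normal_inf_normal _ _
  have hxA : x ∈ A := ⟨hx, Subgroup.mem_comap.2 (Subgroup.mem_centralizer_iff.2 fun s hs => hac s hs)⟩
  have hAP : ⁅A, P⁆ ≤ Z := by
    rw [Subgroup.commutator_le]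
    intro u hu v hv
    rw [← QuotientGroup.eq_one_iff]
    have h1 := Subgroup.mem_centralizer_iff.1 (Subgroup.mem_comap.1 hu.2) (π v) ⟨v, hv, rfl⟩
    show π ⁅u, v⁆ = 1
    rw [map_commutatorElement, commutatorElement_eq_one_iff_mul_comm]
    exact h1.symm
  have hZc : ∀ {H : Subgroup G}, H ≤ Z → ⁅H, P⁆ = ⊥ := fun {H} hH => by
    rw [Subgroup.commutator_eq_bot_iff_le_centralizer]
    exact hH.trans (Subgroup.center_le_centralizer _)
  have hDA : ⁅D, A⁆ = ⊥ := by
    refine Subgroup.commutator_commutator_eq_bot_of_rotate (H₁ := P) (H₂ := P) (H₃ := A) ?_ (hZc hAP)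
    rw [Subgroup.commutator_comm P A]
    exact hZc hAP
  have hAc : IsMulCommutative A := by
    refine ⟨⟨fun u v => Subtype.ext ?_⟩⟩
    exact ((Subgroup.commutator_eq_bot_iff_le_centralizer.1 hDA) u.2.1 v v.2).symm
  exact ha1 ((QuotientGroup.eq_one_iff x).2 (hab A inferInstance hAc hxA))

/-- The conjugation action of a subgroup on the image of a normal subgroup in a quotient. -/
def layerAct (Z P S : Subgroup G) [Z.Normal] [hP : P.Normal]
    [hc : IsMulCommutative (P.map (QuotientGroup.mk' Z))] :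
    S →* MulAut (P.map (QuotientGroup.mk' Z)) :=
  haveI := hP.map (QuotientGroup.mk' Z) (QuotientGroup.mk'_surjective Z)
  (MulAut.conjNormal).comp ((QuotientGroup.mk' Z).comp S.subtype)

theorem relIndex_dvd_index_of_normal_right (C P : Subgroup G) [P.Normal] :
    C.relIndex P ∣ C.index := by
  have h1 : (C ⊓ P).relIndex C * C.relIndex (C ⊔ P) = (C ⊓ P).relIndex P * P.relIndex (C ⊔ P) := by
    rw [Subgroup.relIndex_mul_relIndex _ _ _ inf_le_left le_sup_left,
      Subgroup.relIndex_mul_relIndex _ _ _ inf_le_right le_sup_right]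
  rw [Subgroup.inf_relIndex_left, Subgroup.inf_relIndex_right, Subgroup.relIndex_sup_right,
    mul_comm (C.relIndex P)] at h1
  have h2 : C.relIndex (C ⊔ P) = C.relIndex P :=
    Nat.eq_of_mul_eq_mul_left (Nat.pos_of_ne_zero (fun h0 => Subgroup.index_ne_zero_of_finite (H := P.subgroupOf C) h0)) h1
  rw [← h2]
  exact ⟨_, (Subgroup.relIndex_mul_index le_sup_left).symm⟩

variable {p q : ℕ} [hp : Fact p.Prime] [hq : Fact q.Prime]

/-- The main group-theoretic step. -/
theorem exists_qElement (hpq : p ≠ q) (hprimes : (Nat.card G).primeFactors ⊆ {p, q})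
    (N P : Subgroup G) [N.Normal] [P.Normal] (hP : IsPGroup p P)
    (hnil : Group.IsNilpotent (G ⧸ N))
    (hNP : ∀ n ∈ N, ∀ x ∈ P, ⁅n, x⁆ ∈ Subgroup.center G)
    (hab : ∀ A : Subgroup G, A.Normal → IsMulCommutative A → A ≤ Subgroup.center G) :
    ∃ h : G, (∃ i, h ^ q ^ i = 1) ∧ ∀ k : G, (∃ i, k ^ p ^ i = 1) →
      ((Subgroup.center G).subgroupOf P).index ≤
        (Subgroup.centralizer ({h * k} : Set G)).relIndex P ^ 2 := by
  classical
  have hcl2 := commutator_le_center P hP hab
  set Z : Subgroup G := Subgroup.center G with hZ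
  set π := QuotientGroup.mk' Z with hπ
  set V : Subgroup (G ⧸ Z) := P.map π with hV
  haveI hVn : V.Normal := (inferInstance : P.Normal).map π (QuotientGroup.mk'_surjective Z)
  have hVp : IsPGroup p V := hP.map π
  haveI hVc : IsMulCommutative V := by
    refine ⟨⟨fun u v => Subtype.ext ?_⟩⟩
    obtain ⟨a, ha, hau⟩ := u.2
    obtain ⟨b, hb, hbv⟩ := v.2
    rw [Subgroup.coe_mul, Subgroup.coe_mul, ← hau, ← hbv, ← commutatorElement_eq_one_iff_mul_comm,
      ← map_commutatorElement]
    exact (QuotientGroup.eq_one_iff _).2 (hcl2 (Subgroup.commutator_mem_commutator ha hb))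
  obtain ⟨Q⟩ : Nonempty (Sylow q G) := inferInstance
  obtain ⟨S⟩ : Nonempty (Sylow p G) := inferInstance
  -- a `p`-element and a `q`-element commute modulo `N`
  have hcomm : ∀ h k : G, (∃ i, h ^ q ^ i = 1) → (∃ i, k ^ p ^ i = 1) →
      Commute (h : G ⧸ N) (k : G ⧸ N) := by
    rintro h k ⟨i, hi⟩ ⟨j, hj⟩
    have hsyl : ∀ (r : ℕ) [Fact r.Prime] (R : Sylow r (G ⧸ N)), (R : Subgroup (G ⧸ N)).Normal :=
      fun r _ R => (Sylow.normal_of_normalizerCondition
        (Group.normalizerCondition_of_isNilpotent (G := G ⧸ N)) R)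
    have hz : ∀ (r : ℕ) (x : G) (n : ℕ), x ^ r ^ n = 1 →
        IsPGroup r (Subgroup.zpowers (x : G ⧸ N)) := by
      intro r x n hn
      rintro ⟨y, m, rfl⟩
      refine ⟨n, Subtype.ext ?_⟩
      show ((x : G ⧸ N) ^ m) ^ (r ^ n) = 1
      rw [← zpow_natCast, ← zpow_mul, mul_comm, zpow_mul, zpow_natCast, ← QuotientGroup.mk_pow, hn,
        QuotientGroup.mk_one, one_zpow]
    obtain ⟨R, hR⟩ := (hz q h i hi).exists_le_sylow
    obtain ⟨T, hT⟩ := (hz p k j hj).exists_le_sylow
    exact Subgroup.commute_of_normal_of_disjoint _ _ (hsyl q R) (hsyl p T)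
      (IsPGroup.disjoint_of_ne q p hpq.symm _ _ R.isPGroup' T.isPGroup') _ _
      (hR (Subgroup.mem_zpowers _)) (hT (Subgroup.mem_zpowers _))
  -- conjugation on `V` is trivial on `N`
  have hNV : ∀ n ∈ N, ∀ v ∈ V, π n * v * (π n)⁻¹ = v := by
    rintro n hn v ⟨x, hx, rfl⟩
    have h1 : π ⁅n, x⁆ = 1 := (QuotientGroup.eq_one_iff _).2 (hNP n hn x hx)
    rw [map_commutatorElement, commutatorElement_def, mul_inv_eq_one] at h1
    exact h1
  have hcong : ∀ a b : G, (a : G ⧸ N) = (b : G ⧸ N) → ∀ v ∈ V,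
      π a * v * (π a)⁻¹ = π b * v * (π b)⁻¹ := by
    intro a b hab' v hv
    have h1 : π (a⁻¹ * b) * v * (π (a⁻¹ * b))⁻¹ = v := hNV _ (QuotientGroup.eq.1 hab') v hv
    conv_lhs => rw [← h1]
    rw [map_mul, map_inv]
    group
  -- no fixed points of `Q`
  letI act : MulDistribMulAction (Q : Subgroup G) V :=
    MulDistribMulAction.compHom V (layerAct Z P (Q : Subgroup G))
  letI : CommGroup V := IsMulCommutative.instCommGroup
  have hval : ∀ (h : (Q : Subgroup G)) (v : V),
      ((h • v : V) : G ⧸ Z) = π h * v * (π h)⁻¹ := fun _ _ => rfl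
  have hfree : ∀ v : V, (∀ h : (Q : Subgroup G), h • v = v) → v = 1 := by
    intro v hv
    by_contra hv1
    set W : Subgroup (G ⧸ Z) :=
      V ⊓ Subgroup.centralizer (((Q : Subgroup G).map π : Subgroup (G ⧸ Z)) : Set (G ⧸ Z)) with hW
    have hvW : (v : G ⧸ Z) ∈ W := by
      refine ⟨v.2, Subgroup.mem_centralizer_iff.2 ?_⟩
      rintro _ ⟨h, hh, rfl⟩
      exact mul_inv_eq_iff_eq_mul.1 (congrArg Subtype.val (hv ⟨h, hh⟩))
    have hSW : (S : Subgroup G).map π ≤ Subgroup.normalizer (W : Set (G ⧸ Z)) := by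
      rintro _ ⟨k, hk, rfl⟩
      have key : ∀ k ∈ (S : Subgroup G), ∀ w ∈ W, π k * w * (π k)⁻¹ ∈ W := by
        intro k hk w hw
        refine ⟨hVn.conj_mem _ hw.1 _, Subgroup.mem_centralizer_iff.2 ?_⟩
        rintro _ ⟨h, hh, rfl⟩
        rw [← mul_inv_eq_iff_eq_mul]
        obtain ⟨i, hi⟩ := Q.isPGroup' ⟨h, hh⟩
        obtain ⟨j, hj⟩ := S.isPGroup' ⟨k, hk⟩
        have hc := hcomm h k ⟨i, congrArg Subtype.val hi⟩ ⟨j, congrArg Subtype.val hj⟩
        have h2 := hcong (h * k) (k * h) (by rw [QuotientGroup.mk_mul, QuotientGroup.mk_mul]; exact hc)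
          w hw.1
        have h3 : π h * w * (π h)⁻¹ = w :=
          mul_inv_eq_iff_eq_mul.2 (Subgroup.mem_centralizer_iff.1 hw.2 (π h) ⟨h, hh, rfl⟩)
        calc π h * (π k * w * (π k)⁻¹) * (π h)⁻¹ = π (h * k) * w * (π (h * k))⁻¹ := by
              rw [map_mul]; group
          _ = π k * (π h * w * (π h)⁻¹) * (π k)⁻¹ := by rw [h2, map_mul]; group
          _ = π k * w * (π k)⁻¹ := by rw [h3]
      rw [Subgroup.mem_normalizer_iff]
      intro w
      refine ⟨key k hk w, fun hw => ?_⟩
      have := key k⁻¹ (inv_mem hk) _ hw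
      simpa [map_inv, mul_assoc] using this
    obtain ⟨w, hwW, hw1, hwS⟩ := exists_centralised (p := p) (S.isPGroup'.map π) (hVp.to_le inf_le_left)
      (fun h0 => hv1 (Subtype.ext (by rw [hW, h0, Subgroup.mem_bot] at hvW; exact hvW))) hSW
    obtain ⟨x, hx, rfl⟩ := hwW.1
    -- `x` is fixed by everything modulo the centre
    set C : Subgroup G := (Subgroup.centralizer ({π x} : Set (G ⧸ Z))).comap π with hC
    have hQC : (Q : Subgroup G) ≤ C := fun h hh => Subgroup.mem_comap.2
      (Subgroup.mem_centralizer_singleton_iff.2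
        ((Subgroup.mem_centralizer_iff.1 hwW.2 (π h) ⟨h, hh, rfl⟩)))
    have hSC : (S : Subgroup G) ≤ C := fun h hh => Subgroup.mem_comap.2
      (Subgroup.mem_centralizer_singleton_iff.2 (hwS (π h) ⟨h, hh, rfl⟩))
    have hCtop : C = ⊤ := by
      rw [← Subgroup.index_eq_one]
      by_contra h1
      obtain ⟨r, hr, hrd⟩ := Nat.exists_prime_and_dvd h1
      have hrG : r ∈ (Nat.card G).primeFactors :=
        Nat.mem_primeFactors.2 ⟨hr, hrd.trans C.index_dvd_card, Nat.card_pos.ne'⟩
      have := hprimes hrG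
      simp only [Finset.mem_insert, Finset.mem_singleton] at this
      rcases this with rfl | rfl
      · exact S.not_dvd_index (hrd.trans (Subgroup.index_dvd_of_le hSC))
      · exact Q.not_dvd_index (hrd.trans (Subgroup.index_dvd_of_le hQC))
    set A : Subgroup G := Subgroup.zpowers x ⊔ Z with hA
    have hAn : A.Normal := by
      refine ⟨fun a ha g => ?_⟩
      have hg : g ∈ C := hCtop ▸ Subgroup.mem_top g
      have hle : A ≤ (Subgroup.centralizer ({π g} : Set (G ⧸ Z))).comap π := by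
        refine sup_le (Subgroup.zpowers_le.2 (Subgroup.mem_comap.2 ?_)) fun z hz => ?_
        · exact Subgroup.mem_centralizer_singleton_iff.2
            (Subgroup.mem_centralizer_singleton_iff.1 (Subgroup.mem_comap.1 hg)).symm
        · refine Subgroup.mem_comap.2 (Subgroup.mem_centralizer_singleton_iff.2 ?_)
          rw [show π z = 1 from (QuotientGroup.eq_one_iff z).2 hz, one_mul, mul_one]
      have h1 := Subgroup.mem_centralizer_singleton_iff.1 (Subgroup.mem_comap.1 (hle ha))
      have h2 : π (a⁻¹ * (g * a * g⁻¹)) = 1 := by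
        rw [map_mul, map_mul, map_mul, map_inv, map_inv, ← h1]; group
      have h3 : a⁻¹ * (g * a * g⁻¹) ∈ Z := (QuotientGroup.eq_one_iff _).1 h2
      simpa using A.mul_mem ha (le_sup_right (a := Subgroup.zpowers x) h3)
    have hAc : IsMulCommutative A := by
      refine ⟨⟨fun a b => Subtype.ext ?_⟩⟩
      have hle : A ≤ Subgroup.centralizer (A : Set G) := by
        refine sup_le (Subgroup.zpowers_le.2 (Subgroup.mem_centralizer_iff.2 ?_))
          (Subgroup.center_le_centralizer _)
        intro y hy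
        have : A ≤ Subgroup.centralizer ({x} : Set G) :=
          sup_le (Subgroup.zpowers_le.2 (Subgroup.mem_centralizer_singleton_iff.2 rfl))
            (Subgroup.center_le_centralizer _)
        exact Subgroup.mem_centralizer_singleton_iff.1 (this hy)
      exact Subgroup.mem_centralizer_iff.1 (hle b.2) a a.2
    exact hw1 ((QuotientGroup.eq_one_iff x).2
      (hab A hAn hAc (le_sup_left (b := Z) (Subgroup.mem_zpowers x))))
  obtain ⟨h, hh⟩ := exists_card_fix_sq_le q Q.isPGroup' hfree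
  obtain ⟨i, hi⟩ := Q.isPGroup' h
  refine ⟨h, ⟨i, congrArg Subtype.val hi⟩, fun k hk => ?_⟩
  obtain ⟨j, hj⟩ := hk
  set g : G := (h : G) * k
  set C := Subgroup.centralizer ({g} : Set G)
  -- the image of `C ⊓ P` is fixed by `h`
  have hfixle : (C ⊓ P).map π ≤ (fix V h).map V.subtype := by
    rintro _ ⟨x, ⟨hxC, hxP⟩, rfl⟩
    refine ⟨⟨π x, x, hxP, rfl⟩, ?_, rfl⟩
    rw [SetLike.mem_coe, mem_fix]
    have hgx : (h : G) * k * x = x * ((h : G) * k) :=
      (Subgroup.mem_centralizer_singleton_iff.1 (show x ∈ Subgroup.centralizer {g} from hxC)).symm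
    have hc := (hcomm h k ⟨i, congrArg Subtype.val hi⟩ ⟨j, hj⟩).mul_pow (p ^ j)
    rw [show (k : G ⧸ N) ^ p ^ j = 1 by rw [← QuotientGroup.mk_pow, hj, QuotientGroup.mk_one],
      mul_one] at hc
    replace hc : ((((h : G) * k) ^ p ^ j : G) : G ⧸ N) = (((h : G) ^ p ^ j : G) : G ⧸ N) := by
      rw [QuotientGroup.mk_pow, QuotientGroup.mk_mul, QuotientGroup.mk_pow]; exact hc
    have h1 : (π ((h : G) ^ p ^ j)) * π x * (π ((h : G) ^ p ^ j))⁻¹ = π x := by
      rw [← hcong _ _ hc _ ⟨x, hxP, rfl⟩, mul_inv_eq_iff_eq_mul, ← map_mul, ← map_mul,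
        Commute.pow_left (show Commute ((h : G) * k) x from hgx) (p ^ j)]
    have h2 : h ^ p ^ j • (⟨π x, x, hxP, rfl⟩ : V) = ⟨π x, x, hxP, rfl⟩ :=
      Subtype.ext ((hval _ _).trans h1)
    have hcop : (p ^ j).Coprime (q ^ i) :=
      Nat.Coprime.pow _ _ ((Nat.coprime_primes hp.out hq.out).2 hpq)
    have hdvd := MulAction.pow_smul_eq_iff_period_dvd.1 h2
    have hdvd2 : MulAction.period h (⟨π x, x, hxP, rfl⟩ : V) ∣ q ^ i :=
      MulAction.pow_smul_eq_iff_period_dvd.1 (by rw [hi, one_smul])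
    have h3 := MulAction.pow_smul_eq_iff_period_dvd (m := h) (a := (⟨π x, x, hxP, rfl⟩ : V)) (n := 1)
    rw [pow_one] at h3
    exact h3.2 (by rw [Nat.eq_one_of_dvd_coprimes hcop hdvd hdvd2])
  have hmapcard : ∀ H : Subgroup G,
      Nat.card (H.map π) * Nat.card (H ⊓ Z : Subgroup G) = Nat.card H := by
    intro H
    have h1 := Subgroup.card_mul_index (Z.subgroupOf H)
    have h2 : Z.relIndex H = Nat.card (H.map π) := by
      rw [← Subgroup.relIndex_ker (K := H) π, QuotientGroup.ker_mk']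
    rw [mul_comm, ← h2, ← h1]
    congr 1
    rw [← Subgroup.inf_subgroupOf_left]
    exact (Nat.card_congr (Subgroup.subgroupOfEquivOfLe inf_le_left).toEquiv).symm
  have hZidx : (Z.subgroupOf P).index = Nat.card V := by
    show Z.relIndex P = _
    rw [hV, ← Subgroup.relIndex_ker (K := P) π, QuotientGroup.ker_mk']
  have hCV : Nat.card ((C ⊓ P).map π) ≤ Nat.card (fix V h) := by
    refine (Subgroup.card_le_of_le hfixle).trans ?_
    rw [Subgroup.card_map_of_injective V.subtype_injective]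
  have hinf : (C ⊓ P ⊓ Z : Subgroup G) = P ⊓ Z := by
    rw [inf_comm C P, inf_assoc, inf_eq_right.2 (Subgroup.center_le_centralizer _)]
  have e1 := hmapcard (C ⊓ P)
  have e2 := hmapcard P
  rw [hinf] at e1
  rw [← hV] at e2
  have e3 : Nat.card (C ⊓ P : Subgroup G) * C.relIndex P = Nat.card P := by
    have := Subgroup.card_mul_index (C.subgroupOf P)
    rw [← Subgroup.inf_subgroupOf_right,
      Nat.card_congr (Subgroup.subgroupOfEquivOfLe (inf_le_right : C ⊓ P ≤ P)).toEquiv] at this
    rw [← Subgroup.inf_relIndex_right]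
    exact this
  have e4 : Nat.card ((C ⊓ P).map π) * C.relIndex P = Nat.card V := by
    apply Nat.eq_of_mul_eq_mul_right (Nat.card_pos (α := (P ⊓ Z : Subgroup G)))
    rw [e2, ← e3, ← e1]; ring
  rw [hZidx]
  have hc0 : 0 < Nat.card ((C ⊓ P).map π) := Nat.card_pos
  have e5 : Nat.card ((C ⊓ P).map π) ^ 2 ≤ Nat.card V :=
    (Nat.pow_le_pow_left hCV 2).trans hh
  have e6 : Nat.card ((C ⊓ P).map π) ≤ C.relIndex P := by
    rw [← e4, pow_two] at e5
    exact Nat.le_of_mul_le_mul_left e5 hc0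
  rw [← e4, pow_two]
  exact Nat.mul_le_mul_right _ e6

end CfsgLib.MetanilpPrim
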