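import Cfsg.Agent.MetanilpPrim.Group
import Cfsg.Agent.Chars.Induced.Covering
import Cfsg.Agent.Chars.Induced.Ito
import Cfsg.Agent.Chars.Basic.Kernel

/-!
# Primitive characters of metanilpotent `{p, q}`-groups

The degree of a primitive irreducible character divides the size of some conjugacy class.
-/

set_option autoImplicit false
set_option linter.style.haveILetI false
set_option linter.unusedSectionVars false

noncomputable section

open Cfsg CfsgLib.Chars CfsgLib.Chars.Induced
open scoped commutatorElement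

namespace CfsgLib.MetanilpPrim

universe u

variable {G : Type u} [Group G] [Fintype G]

/-- Every constituent on a normal subgroup is invariant. -/
def Quasiprim (χ : IrrCharacter G) : Prop :=
  ∀ (M : Subgroup G) (_ : M.Normal) (_ : Fintype M) (θ : IrrCharacter M),
    mult (fun n : M => (χ : G → ℂ) n) θ ≠ 0 → inertia M (θ : M → ℂ) = ⊤

theorem quasiprim_of_primitive (χ : IrrCharacter G)
    (h : ∀ H : Subgroup G, H ≠ ⊤ → ∀ θ : H → ℂ, IsCharacter H θ → indFun H θ ≠ (χ : G → ℂ)) :
    Quasiprim χ := by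
  intro M _ _ θ hθ
  by_contra hT
  haveI := Fintype.ofFinite (inertia M (θ : M → ℂ))
  obtain ⟨ψ, -, hψ⟩ := exists_indFun_eq rfl (le_inertia (isClassFunction_coe θ)) χ hθ
  exact h _ hT _ (isCharacter_coe ψ) hψ

/-- Primitivity passes to a quotient. -/
theorem indFun_ne_of_quotient (K : Subgroup G) [K.Normal] [Fintype (G ⧸ K)]
    (χ : IrrCharacter (G ⧸ K))
    (h : ∀ H : Subgroup G, H ≠ ⊤ → ∀ θ : H → ℂ, IsCharacter H θ →
      indFun H θ ≠ (inflate K χ : G → ℂ)) :
    ∀ H : Subgroup (G ⧸ K), H ≠ ⊤ → ∀ θ : H → ℂ, IsCharacter H θ →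
      indFun H θ ≠ (χ : G ⧸ K → ℂ) := by
  classical
  intro H hH θ hθ he
  set π := QuotientGroup.mk' K with hπ
  have hsurj : Function.Surjective π := QuotientGroup.mk'_surjective K
  let f : H.comap π →* H :=
    { toFun := fun x => ⟨π x, x.2⟩
      map_one' := Subtype.ext (map_one π)
      map_mul' := fun a b => Subtype.ext (map_mul π _ _) }
  refine h (H.comap π) (fun ht => hH ?_) (fun x => θ (f x)) ?_ ?_
  · rw [← Subgroup.map_comap_eq_self_of_surjective hsurj H, ht,
      Subgroup.map_top_of_surjective π hsurj]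
  · obtain ⟨n, ρ, rfl⟩ := hθ
    exact ⟨n, ρ.comp f, rfl⟩
  funext g
  show _ = (χ : G ⧸ K → ℂ) (π g)
  rw [← he]
  have hext : ∀ y : G, extendByZero (H.comap π) (fun x => θ (f x)) y = extendByZero H θ (π y) := by
    intro y
    simp only [extendByZero]
    by_cases hy : π y ∈ H
    · rw [show y = Subtype.val (⟨y, hy⟩ : H.comap π) from rfl, Subtype.val_injective.extend_apply,
        show π (Subtype.val (⟨y, hy⟩ : H.comap π)) = Subtype.val (⟨π y, hy⟩ : H) from rfl,
        Subtype.val_injective.extend_apply]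
      rfl
    · rw [Function.extend_apply' _ _ _ fun ⟨a, ha⟩ => hy (ha ▸ a.2),
        Function.extend_apply' _ _ _ fun ⟨a, ha⟩ => hy (ha ▸ a.2)]
      rfl
  simp only [indFun, hext, map_mul, map_inv]
  have hfib : ∀ xb : G ⧸ K,
      (Finset.univ.filter fun x : G => π x = xb).card = Nat.card K := by
    intro xb
    obtain ⟨a, rfl⟩ := hsurj xb
    rw [Nat.card_eq_fintype_card, Fintype.card]
    symm
    refine Finset.card_bij (fun k _ => a * (k : G)) (fun k _ => ?_) (fun k _ l _ hkl => ?_) fun b hb => ?_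
    · simp [hπ, (QuotientGroup.eq_one_iff (k : G)).2 k.2]
    · exact Subtype.ext (mul_left_cancel hkl)
    · rw [Finset.mem_filter] at hb
      exact ⟨⟨a⁻¹ * b, QuotientGroup.eq.1 hb.2.symm⟩, Finset.mem_univ _, by simp⟩
  have hcard : Nat.card (H.comap π) = Nat.card K * Nat.card H := by
    have h1 := Subgroup.card_mul_index (π.ker.subgroupOf (H.comap π))
    rw [Nat.card_congr (Subgroup.subgroupOfEquivOfLe (Subgroup.ker_le_comap π H)).toEquiv] at h1
    rw [← h1, show (π.ker.subgroupOf (H.comap π)).index = π.ker.relIndex (H.comap π) from rfl,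
      Subgroup.relIndex_ker, Subgroup.map_comap_eq_self_of_surjective hsurj, hπ,
      QuotientGroup.ker_mk']
  rw [hcard, ← Finset.sum_fiberwise (Finset.univ : Finset G) (fun x => π x)]
  rw [Finset.sum_congr rfl (g := fun xb : G ⧸ K =>
    (Nat.card K : ℂ) * extendByZero H θ (xb⁻¹ * π g * xb)) fun xb _ => ?_, ← Finset.mul_sum,
    Nat.cast_mul, mul_inv, mul_comm (Nat.card K : ℂ)⁻¹, mul_assoc,
    inv_mul_cancel_left₀ (Nat.cast_ne_zero.2 Nat.card_pos.ne')]
  rw [Finset.sum_congr rfl (g := fun _ => extendByZero H θ (xb⁻¹ * π g * xb)) fun x hx => by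
    rw [(Finset.mem_filter.1 hx).2], Finset.sum_const, hfib, nsmul_eq_mul]

/-- Abelian normal subgroups are central. -/
theorem le_center_of_abelian (χ : IrrCharacter G)
    (hfaith : ∀ g : G, (χ : G → ℂ) g = (χ : G → ℂ) 1 → g = 1) (hqp : Quasiprim χ)
    (A : Subgroup G) [A.Normal] [IsMulCommutative A] : A ≤ Subgroup.center G := by
  classical
  haveI := Fintype.ofFinite A
  obtain ⟨θ, hθ⟩ := exists_mult_restrict_ne_zero (N := A) χ
  have hT := hqp A inferInstance inferInstance θ hθ
  have hsingle : (Set.finite_range fun x : G => conjIrr x θ).toFinset = {θ} := by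
    ext η
    simp only [Set.Finite.mem_toFinset, Set.mem_range, Finset.mem_singleton]
    exact ⟨fun ⟨x, hx⟩ => hx ▸ Subtype.ext (mem_inertia.1 (hT ▸ Subgroup.mem_top x)),
      fun h => ⟨1, (conjIrr_one θ).trans h.symm⟩⟩
  have hcl := clifford χ θ hθ
  rw [hsingle, Finset.sum_singleton] at hcl
  intro a ha
  rw [Subgroup.mem_center_iff]
  intro g
  have hc : g * a * g⁻¹ ∈ A := (inferInstance : A.Normal).conj_mem a ha g
  have hval : (θ : A → ℂ) ⟨g * a * g⁻¹, hc⟩ = (θ : A → ℂ) ⟨a, ha⟩ :=
    mem_inertia_iff_forall.1 (hT ▸ Subgroup.mem_top g) ⟨a, ha⟩ ⟨_, hc⟩ rfl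
  have hcen : ∀ x : A, x ∈ Subgroup.center A := fun x =>
    Subgroup.mem_center_iff.2 fun y => mul_comm' y x
  have h1 : (θ : A → ℂ) (⟨g * a * g⁻¹, hc⟩ * (⟨a, ha⟩ : A)⁻¹) = (θ : A → ℂ) 1 := by
    rw [map_mul_of_mem_center θ (hcen _), hval, ← map_mul_of_mem_center θ (hcen _), mul_inv_cancel]
  have h2 : (χ : G → ℂ) (g * a * g⁻¹ * a⁻¹) = (χ : G → ℂ) 1 := by
    have e1 := congrFun hcl (⟨g * a * g⁻¹, hc⟩ * (⟨a, ha⟩ : A)⁻¹)
    have e2 := congrFun hcl 1
    simp only [Pi.smul_apply, smul_eq_mul, h1] at e1 e2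
    exact e1.trans e2.symm
  have h3 := hfaith _ h2
  rw [mul_inv_eq_one, mul_inv_eq_iff_eq_mul] at h3
  exact h3

/-- The restriction to a normal subgroup with nilpotent quotient is irreducible. -/
theorem exists_restrict_eq (χ : IrrCharacter G) (hqp : Quasiprim χ) (N : Subgroup G) [N.Normal]
    [Fintype N] (hnil : Group.IsNilpotent (G ⧸ N)) :
    ∃ θ : IrrCharacter N, ∀ n : N, (χ : G → ℂ) n = (θ : N → ℂ) n := by
  classical
  suffices h : ∀ (d : ℕ) (M : Subgroup G), M.Normal → N ≤ M → M.index ≤ d →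
      ∃ θ : IrrCharacter M, ∀ m : M, (χ : G → ℂ) m = (θ : M → ℂ) m from
    h _ N inferInstance le_rfl le_rfl
  intro d
  induction d with
  | zero => intro M _ _ hM; exact absurd (Nat.le_zero.1 hM) Subgroup.index_ne_zero_of_finite
  | succ d ih =>
    intro M hMn hNM hM
    by_cases htop : M = ⊤
    · subst htop
      exact ⟨⟨fun m => (χ : G → ℂ) m, isIrrCharacter_comp χ.2 (⊤ : Subgroup G).subtype
        fun x => ⟨⟨x, trivial⟩, rfl⟩⟩, fun _ => rfl⟩
    haveI : Group.IsNilpotent (G ⧸ M) :=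
      Group.nilpotent_of_surjective (QuotientGroup.map N M (MonoidHom.id G) hNM)
        (fun x => by obtain ⟨g, rfl⟩ := QuotientGroup.mk_surjective x; exact ⟨g, rfl⟩)
    haveI : Nontrivial (G ⧸ M) := QuotientGroup.nontrivial_iff.2 htop
    haveI : Nontrivial (Subgroup.center (G ⧸ M)) :=
      (Subgroup.nontrivial_iff_ne_bot _).2 (Group.IsNilpotent.center_ne_bot _)
    obtain ⟨r, hr, hrd⟩ := Nat.exists_prime_and_dvd
      (Finite.one_lt_card (α := Subgroup.center (G ⧸ M))).ne'
    haveI := Fact.mk hr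
    obtain ⟨c, hc⟩ := exists_prime_orderOf_dvd_card' r hrd
    set π := QuotientGroup.mk' M with hπ
    set M' := (Subgroup.zpowers (c : G ⧸ M)).comap π with hM'
    haveI : (Subgroup.zpowers (c : G ⧸ M)).Normal := by
      refine ⟨fun x hx g => ?_⟩
      obtain ⟨k, rfl⟩ := hx
      have : ((c : G ⧸ M) ^ k) ∈ Subgroup.center (G ⧸ M) := Subgroup.zpow_mem _ c.2 k
      rw [Subgroup.mem_center_iff.1 this g, mul_inv_cancel_right]
      exact ⟨k, rfl⟩
    have hMM' : M ≤ M' := fun m hm => Subgroup.mem_comap.2 (by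
      rw [show π m = 1 from (QuotientGroup.eq_one_iff m).2 hm]; exact one_mem _)
    have hrel : M.relIndex M' = r := by
      have h := Subgroup.relIndex_ker (K := M') π
      rw [hπ, QuotientGroup.ker_mk'] at h
      rw [h, ← hπ, hM', Subgroup.map_comap_eq_self_of_surjective (QuotientGroup.mk'_surjective M),
        Nat.card_zpowers, Subgroup.orderOf_coe, hc]
    have hlt : M'.index < M.index := by
      rw [← Subgroup.relIndex_mul_index hMM', hrel]
      exact lt_mul_of_one_lt_left (Nat.pos_of_ne_zero Subgroup.index_ne_zero_of_finite) hr.one_lt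
    haveI : Fintype M' := Fintype.ofFinite _
    obtain ⟨θ', hθ'⟩ := ih M' inferInstance (hNM.trans hMM') (by omega)
    haveI : Fintype M := Fintype.ofFinite _
    obtain ⟨θ, hθ⟩ := exists_mult_restrict_ne_zero (N := M) χ
    have hT := hqp M hMn inferInstance θ hθ
    haveI : Fintype (M.subgroupOf M') := Fintype.ofFinite _
    let e : M.subgroupOf M' ≃* M := Subgroup.subgroupOfEquivOfLe hMM'
    let θ₁ : IrrCharacter (M.subgroupOf M') :=
      ⟨fun a => (θ : M → ℂ) (e a), isIrrCharacter_comp θ.2 e.toMonoidHom e.surjective⟩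
    haveI : IsCyclic (M' ⧸ M.subgroupOf M') :=
      isCyclic_of_prime_card (p := r) (by rw [← Subgroup.index_eq_card]; exact hrel)
    have hinv : ∀ x : M', conjFun (M.subgroupOf M') x (θ₁ : M.subgroupOf M' → ℂ) = θ₁ := by
      intro x
      funext a
      have hx := congrFun (mem_inertia.1 (hT ▸ Subgroup.mem_top (x : G))) (e a)
      rw [conjFun_apply] at hx ⊢
      exact (congrArg (θ : M → ℂ) (Subtype.ext rfl)).trans hx
    have hm : mult (fun a : M.subgroupOf M' => (θ' : M' → ℂ) a) θ₁ ≠ 0 := by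
      have : mult (fun a : M.subgroupOf M' => (θ' : M' → ℂ) a) θ₁ =
          mult (fun n : M => (χ : G → ℂ) n) θ := by
        simp only [mult]
        rw [← classInner_comp_equiv e (fun n : M => (χ : G → ℂ) n)]
        congr 3
        funext a
        exact (hθ' _).symm
      rwa [this]
    refine ⟨θ, fun m => ?_⟩
    have h := restrict_eq_of_isCyclic θ₁ hinv θ' hm (e.symm m)
    rw [← hθ'] at h
    show (χ : G → ℂ) m = _
    refine (Eq.trans ?_ h).trans (congrArg (θ : M → ℂ) (e.apply_symm_apply m))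
    rfl

/-- The degree of a constituent on a Sylow subgroup of `N` bounds the `p`-part. -/
theorem exists_dvd_layer {p : ℕ} [hp : Fact p.Prime] (χ : IrrCharacter G) (hqp : Quasiprim χ)
    (N P : Subgroup G) [N.Normal] [Fintype N] (hnil : Group.IsNilpotent (G ⧸ N)) (hP : IsPGroup p P)
    (hPn : P.Normal) (hPN : P ≤ N)
    (hsyl : ¬ p ∣ P.relIndex N) :
    ∃ a b : ℕ, charDegree (χ : G → ℂ) ∣ p ^ a * b ∧ ¬ p ∣ b ∧ b ∣ P.relIndex N ∧
      (p ^ a) ^ 2 ≤ ((Subgroup.center G).subgroupOf P).index := by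
  classical
  obtain ⟨θ, hθ⟩ := exists_restrict_eq χ hqp N hnil
  set P₁ := P.subgroupOf N with hP₁
  haveI : P₁.Normal := hPn.subgroupOf N
  haveI : Fintype P₁ := Fintype.ofFinite _
  obtain ⟨ψ, hψ⟩ := exists_mult_restrict_ne_zero (N := P₁) θ
  have hd := charDegree_dvd_mul_index θ ψ hψ
  have hχθ : charDegree (χ : G → ℂ) = charDegree (θ : N → ℂ) := by
    apply Nat.cast_injective (R := ℂ)
    rw [coe_charDegree, coe_charDegree, ← hθ 1, OneMemClass.coe_one]
  have hP₁p : IsPGroup p P₁ :=
    hP.of_equiv (Subgroup.subgroupOfEquivOfLe hPN).symm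
  obtain ⟨n, hn⟩ := IsPGroup.iff_card.1 hP₁p
  obtain ⟨a, -, ha⟩ := (Nat.dvd_prime_pow hp.out).1 (hn ▸ charDegree_dvd_card ψ)
  refine ⟨a, P.relIndex N, ?_, hsyl, dvd_rfl, ?_⟩
  · rw [hχθ, ← ha]; exact hd
  rw [← ha]
  refine (charDegree_sq_le_index_center ψ).trans ?_
  let e : P₁ ≃* P := Subgroup.subgroupOfEquivOfLe hPN
  have hle : ((Subgroup.center G).subgroupOf P).comap e.toMonoidHom ≤ Subgroup.center P₁ := by
    intro x hx
    rw [Subgroup.mem_comap, Subgroup.mem_subgroupOf] at hx
    exact Subgroup.mem_center_iff.2 fun y => Subtype.ext (Subtype.ext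
      (Subgroup.mem_center_iff.1 hx ((y : N) : G)))
  refine (Nat.le_of_dvd (Nat.pos_of_ne_zero Subgroup.index_ne_zero_of_finite)
    (Subgroup.index_dvd_of_le hle)).trans (le_of_eq ?_)
  exact Subgroup.index_comap_of_surjective _ e.surjective

/-- Faithful case. -/
theorem exists_dvd_class_faithful (χ : IrrCharacter G)
    (hfaith : ∀ g : G, (χ : G → ℂ) g = (χ : G → ℂ) 1 → g = 1) (hqp : Quasiprim χ)
    {p q : ℕ} [Fact p.Prime] [Fact q.Prime] (hpq : p ≠ q)
    (hprimes : (Nat.card G).primeFactors ⊆ {p, q})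
    (N : Subgroup G) [N.Normal] (hN : Group.IsNilpotent N) (hnil : Group.IsNilpotent (G ⧸ N)) :
    ∃ g : G, charDegree (χ : G → ℂ) ∣ (Subgroup.centralizer ({g} : Set G)).index := by
  classical
  haveI : Fintype N := Fintype.ofFinite _
  haveI := hN
  have hab : ∀ A : Subgroup G, A.Normal → IsMulCommutative A → A ≤ Subgroup.center G :=
    fun A _ _ => le_center_of_abelian χ hfaith hqp A
  obtain ⟨P₀⟩ : Nonempty (Sylow p N) := inferInstance
  obtain ⟨Q₀⟩ : Nonempty (Sylow q N) := inferInstance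
  haveI := Sylow.normal_of_normalizerCondition Group.normalizerCondition_of_isNilpotent P₀
  haveI := Sylow.normal_of_normalizerCondition Group.normalizerCondition_of_isNilpotent Q₀
  haveI := P₀.characteristic_of_normal inferInstance
  haveI := Q₀.characteristic_of_normal inferInstance
  set P := (P₀ : Subgroup N).map N.subtype with hP
  set Q := (Q₀ : Subgroup N).map N.subtype with hQ
  haveI hPn : P.Normal := ConjAct.normal_of_characteristic_of_normal
  haveI hQn : Q.Normal := ConjAct.normal_of_characteristic_of_normal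
  have hPp : IsPGroup p P := P₀.isPGroup'.map _
  have hQp : IsPGroup q Q := Q₀.isPGroup'.map _
  have hdis : ∀ x ∈ P, ∀ y ∈ Q, x * y = y * x := fun x hx y hy =>
    Subgroup.commute_of_normal_of_disjoint P Q hPn hQn (IsPGroup.disjoint_of_ne p q hpq _ _ hPp hQp)
      x y hx hy
  have hsupN : P ⊔ Q = N := by
    rw [hP, hQ, ← Subgroup.map_sup]
    have htop : (P₀ : Subgroup N) ⊔ (Q₀ : Subgroup N) = ⊤ := by
      rw [← Subgroup.index_eq_one]
      by_contra h1
      obtain ⟨r, hr, hrd⟩ := Nat.exists_prime_and_dvd h1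
      have hrG : r ∈ (Nat.card G).primeFactors := Nat.mem_primeFactors.2
        ⟨hr, hrd.trans ((Subgroup.index_dvd_card _).trans N.card_subgroup_dvd_card), Nat.card_pos.ne'⟩
      have := hprimes hrG
      simp only [Finset.mem_insert, Finset.mem_singleton] at this
      rcases this with rfl | rfl
      · exact P₀.not_dvd_index (hrd.trans (Subgroup.index_dvd_of_le le_sup_left))
      · exact Q₀.not_dvd_index (hrd.trans (Subgroup.index_dvd_of_le le_sup_right))
    rw [htop, ← MonoidHom.range_eq_map, Subgroup.range_subtype]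
  have hPact : ∀ n ∈ N, ∀ x ∈ P, ⁅n, x⁆ ∈ Subgroup.center G := by
    intro n hn x hx
    rw [← hsupN, ← SetLike.mem_coe, Subgroup.mul_normal] at hn
    obtain ⟨a, ha, b, hb, rfl⟩ := Set.mem_mul.1 hn
    have h1 : ⁅a * b, x⁆ = ⁅a, x⁆ := by
      rw [commutatorElement_def, commutatorElement_def,
        show a * b * x = a * x * b by rw [mul_assoc, ← hdis x hx b hb, mul_assoc]]
      group
    rw [h1]
    exact commutator_le_center P hPp hab (Subgroup.commutator_mem_commutator ha hx)
  have hQact : ∀ n ∈ N, ∀ x ∈ Q, ⁅n, x⁆ ∈ Subgroup.center G := by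
    intro n hn x hx
    rw [← hsupN, sup_comm, ← SetLike.mem_coe, Subgroup.mul_normal] at hn
    obtain ⟨a, ha, b, hb, rfl⟩ := Set.mem_mul.1 hn
    have h1 : ⁅a * b, x⁆ = ⁅a, x⁆ := by
      rw [commutatorElement_def, commutatorElement_def,
        show a * b * x = a * x * b by rw [mul_assoc, hdis b hb x hx, mul_assoc]]
      group
    rw [h1]
    exact commutator_le_center Q hQp hab (Subgroup.commutator_mem_commutator ha hx)
  obtain ⟨h, hh1, hh⟩ := exists_qElement hpq hprimes N P hPp hnil hPact hab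
  obtain ⟨k, hk1, hk⟩ := exists_qElement hpq.symm (by rwa [Finset.pair_comm]) N Q hQp hnil hQact hab
  set g := h * k with hg
  have hidxP := hh k hk1
  have hidxQ := hk h hh1
  have hcq : (Subgroup.centralizer ({k * h} : Set G)).relIndex Q =
      (Subgroup.centralizer ({h * k} : Set G)).relIndex Q := by
    have hconj : k * h = h⁻¹ * g * h := by rw [hg]; group
    rw [hconj]
    have hmap : Subgroup.centralizer ({h⁻¹ * g * h} : Set G) =
        (Subgroup.centralizer ({g} : Set G)).map (MulAut.conj h⁻¹).toMonoidHom := by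
      ext y
      rw [Subgroup.mem_map_equiv]
      simp only [MulAut.conj_symm_apply, inv_inv, Subgroup.mem_centralizer_singleton_iff]
      constructor
      · intro e
        calc h * y * h⁻¹ * g = h * (y * (h⁻¹ * g * h)) * h⁻¹ := by group
          _ = g * (h * y * h⁻¹) := by rw [e]; group
      · intro e
        calc y * (h⁻¹ * g * h) = h⁻¹ * (h * y * h⁻¹ * g) * h := by group
          _ = h⁻¹ * g * h * y := by rw [e]; group
    have hQc : Q.map (MulAut.conj h⁻¹).toMonoidHom = Q := by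
      ext y
      rw [Subgroup.mem_map_equiv]
      simp only [MulAut.conj_symm_apply, inv_inv]
      exact ⟨fun e => by simpa [mul_assoc] using hQn.conj_mem _ e h⁻¹, fun e => hQn.conj_mem _ e h⟩
    conv_lhs => rw [hmap, ← hQc]
    exact Subgroup.relIndex_map_map_of_injective _ _ (MulAut.conj h⁻¹).injective
  rw [hcq] at hidxQ
  refine ⟨g, ?_⟩
  set C := Subgroup.centralizer ({g} : Set G)
  have hcoprime : ∀ {r : ℕ} (R : Subgroup G), IsPGroup r R → R ≤ N → r.Prime →
      ∃ i, C.relIndex R = r ^ i := by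
    intro r R hR _ hr
    haveI := Fact.mk hr
    obtain ⟨n, hn⟩ := IsPGroup.iff_card.1 hR
    obtain ⟨i, -, hi⟩ := (Nat.dvd_prime_pow hr).1 (hn ▸ Subgroup.relIndex_dvd_card (H := C) (K := R))
    exact ⟨i, hi⟩
  have hPN : P ≤ N := Subgroup.map_subtype_le _
  have hQN : Q ≤ N := Subgroup.map_subtype_le _
  have hrel : ∀ (R : Subgroup N), (R.map N.subtype).relIndex N = R.index := fun R => by
    rw [show (R.map N.subtype).relIndex N = ((R.map N.subtype).subgroupOf N).index from rfl,
      Subgroup.subgroupOf, Subgroup.comap_map_eq_self_of_injective N.subtype_injective]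
  obtain ⟨a, b, hab1, hpb, hb, ha2⟩ := exists_dvd_layer χ hqp N P hnil hPp hPn hPN
    (by rw [hP, hrel]; exact P₀.not_dvd_index)
  obtain ⟨a', b', hab2, hqb, hb', ha2'⟩ := exists_dvd_layer χ hqp N Q hnil hQp hQn hQN
    (by rw [hQ, hrel]; exact Q₀.not_dvd_index)
  obtain ⟨i, hi⟩ := hcoprime P hPp hPN Fact.out
  obtain ⟨i', hi'⟩ := hcoprime Q hQp hQN Fact.out
  have hai : p ^ a ≤ p ^ i := by
    rw [← hi]; exact (Nat.pow_le_pow_iff_left (by norm_num)).1 (ha2.trans hidxP)
  have hai' : q ^ a' ≤ q ^ i' := by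
    rw [← hi']; exact (Nat.pow_le_pow_iff_left (by norm_num)).1 (ha2'.trans hidxQ)
  set d := charDegree (χ : G → ℂ) with hd
  have hdvdP : p ^ a ∣ C.index :=
    (pow_dvd_pow p ((Nat.pow_le_pow_iff_right (Fact.out : p.Prime).one_lt).1 hai)).trans
      (hi ▸ relIndex_dvd_index_of_normal_right C P)
  have hdvdQ : q ^ a' ∣ C.index :=
    (pow_dvd_pow q ((Nat.pow_le_pow_iff_right (Fact.out : q.Prime).one_lt).1 hai')).trans
      (hi' ▸ relIndex_dvd_index_of_normal_right C Q)
  -- prime by prime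
  rw [← Nat.factorization_le_iff_dvd (charDegree_pos χ).ne' Subgroup.index_ne_zero_of_finite]
  intro r
  by_cases hr : d.factorization r = 0
  · rw [hr]; exact Nat.zero_le _
  have hrp : r ∈ d.primeFactors := by
    rw [← Nat.support_factorization, Finsupp.mem_support_iff]; exact hr
  have hrG : r ∈ (Nat.card G).primeFactors :=
    Nat.primeFactors_mono (charDegree_dvd_card χ) Nat.card_pos.ne' hrp
  have := hprimes hrG
  simp only [Finset.mem_insert, Finset.mem_singleton] at this
  have key : ∀ (s e c : ℕ), s.Prime → d ∣ s ^ e * c → ¬ s ∣ c → s ^ e ∣ C.index →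
      d.factorization s ≤ C.index.factorization s := by
    intro s e c hs hdc hsc hse
    have hcne : c ≠ 0 := fun h => hsc (h ▸ dvd_zero s)
    refine le_trans ?_ ((hs.pow_dvd_iff_le_factorization Subgroup.index_ne_zero_of_finite).1 hse)
    have h1 := (Nat.factorization_le_iff_dvd (charDegree_pos χ).ne'
      (Nat.mul_ne_zero (pow_ne_zero e hs.ne_zero) hcne)).2 hdc s
    rw [Nat.factorization_mul (pow_ne_zero e hs.ne_zero) hcne, Finsupp.add_apply,
      hs.factorization_pow, Finsupp.single_eq_same, Nat.factorization_eq_zero_of_not_dvd hsc] at h1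
    simpa using h1
  rcases this with rfl | rfl
  · exact key r a b Fact.out hab1 hpb hdvdP
  · exact key r a' b' Fact.out hab2 hqb hdvdQ

/-- **Primitive characters of metanilpotent groups with two prime divisors.** -/
theorem exists_dvd_class (χ : IrrCharacter G)
    (hprim : ∀ H : Subgroup G, H ≠ ⊤ → ∀ θ : H → ℂ, IsCharacter H θ → indFun H θ ≠ (χ : G → ℂ))
    {p q : ℕ} [Fact p.Prime] [Fact q.Prime] (hpq : p ≠ q)
    (hprimes : (Nat.card G).primeFactors ⊆ {p, q})
    (N : Subgroup G) [N.Normal] (hN : Group.IsNilpotent N) (hnil : Group.IsNilpotent (G ⧸ N)) :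
    ∃ g : G, charDegree (χ : G → ℂ) ∣ (Subgroup.centralizer ({g} : Set G)).index := by
  classical
  set K := charKer (χ : G → ℂ)
  haveI : K.Normal := charKer_normal (isClassFunction_coe χ)
  haveI := Fintype.ofFinite (G ⧸ K)
  obtain ⟨χ', hχ'⟩ := exists_inflate_eq K χ le_rfl
  have hfaith : ∀ x : G ⧸ K, (χ' : G ⧸ K → ℂ) x = (χ' : G ⧸ K → ℂ) 1 → x = 1 := by
    intro x hx
    obtain ⟨g, rfl⟩ := QuotientGroup.mk_surjective x
    refine (QuotientGroup.eq_one_iff g).2 ((mem_charKer_iff (isCharacter_coe χ)).2 ?_)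
    rw [← hχ']
    exact hx
  have hqp := quasiprim_of_primitive χ'
    (indFun_ne_of_quotient K χ' (by rw [hχ']; exact hprim))
  set π := QuotientGroup.mk' K
  have hsurj : Function.Surjective π := QuotientGroup.mk'_surjective K
  haveI : (N.map π).Normal := (inferInstance : N.Normal).map π hsurj
  have hNb : Group.IsNilpotent (N.map π) :=
    haveI := hN
    Group.nilpotent_of_surjective (π.subgroupMap N) (π.subgroupMap_surjective N)
  have hnilb : Group.IsNilpotent ((G ⧸ K) ⧸ N.map π) := by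
    haveI := hnil
    refine Group.nilpotent_of_surjective (QuotientGroup.map N (N.map π) π
      (fun n hn => Subgroup.mem_comap.2 ⟨n, hn, rfl⟩)) fun x => ?_
    obtain ⟨y, rfl⟩ := QuotientGroup.mk_surjective x
    obtain ⟨g, rfl⟩ := hsurj y
    exact ⟨g, rfl⟩
  obtain ⟨x, hx⟩ := exists_dvd_class_faithful χ' hfaith hqp hpq
    ((Nat.primeFactors_mono (Subgroup.card_quotient_dvd_card K) Nat.card_pos.ne').trans hprimes)
    (N.map π) hNb hnilb
  obtain ⟨g, rfl⟩ := hsurj x
  refine ⟨g, ?_⟩
  rw [← hχ', charDegree_inflate]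
  refine hx.trans ?_
  have hle : (Subgroup.centralizer ({g} : Set G)).map π ≤
      Subgroup.centralizer ({π g} : Set (G ⧸ K)) := by
    rintro _ ⟨y, hy, rfl⟩
    rw [Subgroup.mem_centralizer_singleton_iff, ← map_mul, ← map_mul,
      Subgroup.mem_centralizer_singleton_iff.1 hy]
  exact (Subgroup.index_dvd_of_le hle).trans (Subgroup.index_map_dvd _ hsurj)

end CfsgLib.MetanilpPrim
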