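import Cfsg.Agent.MetanilpPrim.Average
import Cfsg.Agent.MetanilpPrim.Main

/-!
# Quasiprimitive characters of solvable groups: `χ(1)_p` divides a class size

Averaged over the group, the `p`-part of `|G : C(g)|` is at least the `p`-part of `χ(1)`.
-/

set_option autoImplicit false
set_option linter.style.haveILetI false
set_option linter.unusedSectionVars false

noncomputable section

open Cfsg CfsgLib.Chars CfsgLib.Chars.Induced
open scoped commutatorElement

namespace CfsgLib.MetanilpPrim

universe u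

section Chief

variable {G : Type*} [Group G] [Fintype G]

/-- The conjugation action on a normal subgroup of a quotient. -/
def quotConj (M : Subgroup G) [M.Normal] (V : Subgroup (G ⧸ M)) [V.Normal] : G →* MulAut V :=
  MulAut.conjNormal.comp (QuotientGroup.mk' M)

theorem coe_quotConj (M : Subgroup G) [M.Normal] (V : Subgroup (G ⧸ M)) [V.Normal] (g : G) (v : V) :
    ((quotConj M V g v : V) : G ⧸ M) = (g : G ⧸ M) * v * (g : G ⧸ M)⁻¹ := rfl

/-- Only trivial normal subgroups below `V`. -/
def IsMinIn (V : Subgroup G) : Prop :=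
  V ≠ ⊥ ∧ ∀ W : Subgroup G, W.Normal → W ≤ V → W = ⊥ ∨ W = V

theorem prod_fix_le_of_minimal (M : Subgroup G) [M.Normal] [Group.IsSolvable G]
    (V : Subgroup (G ⧸ M)) [V.Normal] (hmin : IsMinIn V) [IsMulCommutative V]
    {p : ℕ} [Fact p.Prime] (hp : IsPGroup p V)
    (hne : ∃ g : G, ∃ v : V, quotConj M V g v ≠ v) :
    ∏ g : G, Nat.card {v : V // quotConj M V g v = v} ^ 2 ≤ Nat.card V ^ Fintype.card G := by
  classical
  letI : CommGroup V := IsMulCommutative.instCommGroup
  letI act : MulDistribMulAction G V := MulDistribMulAction.compHom V (quotConj M V)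
  have hsmul : ∀ (g : G) (v : V), g • v = quotConj M V g v := fun _ _ => rfl
  set C := (quotConj M V).ker with hC
  have hCmem : ∀ g, g ∈ C ↔ ∀ v : V, g • v = v := fun g => by
    rw [hC, MonoidHom.mem_ker, MulEquiv.ext_iff]
    rfl
  haveI : Nontrivial (G ⧸ C) := QuotientGroup.nontrivial_iff.2 fun ht => by
    obtain ⟨g, v, hv⟩ := hne
    exact hv ((hCmem g).1 (ht ▸ Subgroup.mem_top g) v)
  -- an abelian normal subgroup of the acting group
  obtain ⟨D, hDn, hD1, hDc⟩ : ∃ D : Subgroup (G ⧸ C), D.Normal ∧ D ≠ ⊥ ∧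
      ∀ a ∈ D, ∀ b ∈ D, a * b = b * a := by
    obtain ⟨n, hn⟩ : ∃ n, derivedSeries (G ⧸ C) n = ⊥ := Group.IsSolvable.solvable
    obtain ⟨m, hm, hm'⟩ : ∃ m, derivedSeries (G ⧸ C) m ≠ ⊥ ∧ derivedSeries (G ⧸ C) (m + 1) = ⊥ := by
      by_contra hcon
      push Not at hcon
      have : ∀ m, derivedSeries (G ⧸ C) m ≠ ⊥ := fun m => by
        induction m with
        | zero => rw [derivedSeries_zero]; exact top_ne_bot
        | succ m ih => exact hcon m ih
      exact this n hn
    refine ⟨_, derivedSeries_normal _ m, hm, fun a ha b hb => ?_⟩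
    rw [← commutatorElement_eq_one_iff_mul_comm, ← Subgroup.mem_bot, ← hm', derivedSeries_succ]
    exact Subgroup.commutator_mem_commutator ha hb
  obtain ⟨r, hr, hrd⟩ := Nat.exists_prime_and_dvd (fun h => hD1 (Subgroup.card_eq_one.1 h))
  haveI := Fact.mk hr
  obtain ⟨d, hd⟩ := exists_prime_orderOf_dvd_card' r hrd
  let A : Subgroup G :=
    { carrier := {g | (g : G ⧸ C) ∈ D ∧ (g : G ⧸ C) ^ r = 1}
      one_mem' := ⟨D.one_mem, by simp⟩
      mul_mem' := fun {a b} ha hb => ⟨by rw [QuotientGroup.mk_mul]; exact mul_mem ha.1 hb.1, by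
        rw [QuotientGroup.mk_mul, (show Commute (a : G ⧸ C) b from hDc _ ha.1 _ hb.1).mul_pow,
          ha.2, hb.2, one_mul]⟩
      inv_mem' := fun {a} ha => ⟨by rw [QuotientGroup.mk_inv]; exact inv_mem ha.1, by
        rw [QuotientGroup.mk_inv, inv_pow, ha.2, inv_one]⟩ }
  haveI hAn : A.Normal := by
    refine ⟨fun a ha g => ⟨?_, ?_⟩⟩
    · rw [QuotientGroup.mk_mul, QuotientGroup.mk_mul, QuotientGroup.mk_inv]
      exact hDn.conj_mem _ ha.1 _
    · rw [QuotientGroup.mk_mul, QuotientGroup.mk_mul, QuotientGroup.mk_inv, conj_pow, ha.2, mul_one,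
        mul_inv_cancel]
  have hcongr : ∀ a b : G, (a : G ⧸ C) = b → ∀ v : V, a • v = b • v := by
    intro a b hab v
    have h1 := (hCmem _).1 (QuotientGroup.eq.1 hab) v
    rw [mul_smul, inv_smul_eq_iff] at h1
    exact h1.symm
  have hcomm : ∀ a ∈ A, ∀ b ∈ A, ∀ v : V, a • b • v = b • a • v := fun a ha b hb v => by
    rw [← mul_smul, ← mul_smul]
    exact hcongr _ _ (by rw [QuotientGroup.mk_mul, QuotientGroup.mk_mul, hDc _ ha.1 _ hb.1]) v
  have hexp : ∀ a ∈ A, ∀ v : V, a ^ r • v = v := fun a ha v => by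
    conv_rhs => rw [← one_smul G v]
    exact hcongr _ _ (by rw [QuotientGroup.mk_pow, ha.2, QuotientGroup.mk_one]) v
  obtain ⟨a₁, ha₁⟩ := QuotientGroup.mk_surjective (d : G ⧸ C)
  have ha₁A : a₁ ∈ A := ⟨ha₁ ▸ d.2, by
    rw [ha₁, ← Subgroup.coe_pow, ← hd, pow_orderOf_eq_one, OneMemClass.coe_one]⟩
  have ha₁ne : ¬ ∀ v : V, a₁ • v = v := fun h => by
    have h1 : (d : G ⧸ C) = 1 := by rw [← ha₁, QuotientGroup.eq_one_iff, hCmem]; exact h
    rw [OneMemClass.coe_eq_one] at h1
    rw [h1, orderOf_one] at hd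
    exact hr.ne_one hd.symm
  -- the fixed points of `A` form a normal subgroup
  have hWn : ((fixAll V A).map V.subtype).Normal := by
    refine ⟨fun x hx g => ?_⟩
    obtain ⟨v, hv, rfl⟩ := hx
    obtain ⟨g, rfl⟩ := QuotientGroup.mk_surjective g
    refine ⟨g • v, ?_, rfl⟩
    rw [SetLike.mem_coe, mem_fixAll] at hv ⊢
    intro a ha
    have := hv _ (show g⁻¹ * a * g ∈ A by simpa using hAn.conj_mem a ha g⁻¹)
    rwa [mul_smul, mul_smul, inv_smul_eq_iff] at this
  have hfix : ∀ v : V, (∀ a ∈ A, a • v = v) → v = 1 := by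
    intro v hv
    rcases hmin.2 _ hWn (Subgroup.map_subtype_le _) with h0 | h0
    · have : (v : G ⧸ M) ∈ (fixAll V A).map V.subtype := ⟨v, mem_fixAll.2 hv, rfl⟩
      rw [h0, Subgroup.mem_bot] at this
      exact Subtype.ext this
    · refine absurd (fun w : V => ?_) ha₁ne
      have hw : (w : G ⧸ M) ∈ (fixAll V A).map V.subtype := h0.symm ▸ w.2
      obtain ⟨w', hw', he⟩ := hw
      rw [← Subtype.ext (show (w' : G ⧸ M) = w from he)]
      exact mem_fixAll.1 hw' a₁ ha₁A
  -- the prime of `A` differs from that of `V`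
  have hrp : r ≠ p := by
    intro hrp
    subst hrp
    have hVdvd : r ∣ Nat.card V := by
      obtain ⟨n, hn⟩ := IsPGroup.iff_card.1 hp
      rcases Nat.eq_zero_or_pos n with rfl | hn0
      · exact absurd (Subgroup.card_eq_one.1 (by rw [hn, pow_zero])) hmin.1
      · rw [hn]; exact dvd_pow_self r hn0.ne'
    have hAimg : IsPGroup r ((quotConj M V).comp A.subtype).range := by
      rintro ⟨_, a, rfl⟩
      exact ⟨1, Subtype.ext (by
        show (quotConj M V a) ^ r ^ 1 = 1
        rw [pow_one, ← map_pow]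
        exact MulEquiv.ext fun v => hexp a a.2 v)⟩
    letI : MulAction ((quotConj M V).comp A.subtype).range V :=
      MulAction.compHom V ((quotConj M V).comp A.subtype).range.subtype
    obtain ⟨b, hb, hb1⟩ := hAimg.exists_fixed_point_of_prime_dvd_card_of_fixed_point V hVdvd (a := 1)
      (fun x => map_one (x : MulAut V))
    exact hb1 (hfix b fun a ha => hb ⟨_, ⟨a, ha⟩, rfl⟩).symm
  have hcop : (Nat.card V).Coprime r := by
    obtain ⟨n, hn⟩ := IsPGroup.iff_card.1 hp
    rw [hn]
    exact Nat.Coprime.pow_left _ ((Nat.coprime_primes Fact.out hr).2 hrp.symm)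
  exact prod_card_fix_sq_le r A hcomm hexp hcop hfix

/-- A minimal normal subgroup of a solvable group is an abelian `p`-group. -/
theorem minimal_structure [Group.IsSolvable G] (V : Subgroup G) [V.Normal] (hmin : IsMinIn V) :
    IsMulCommutative V ∧ ∃ p : ℕ, p.Prime ∧ IsPGroup p V := by
  have hc : ∀ a ∈ V, ∀ b ∈ V, a * b = b * a := by
    rcases hmin.2 ⁅V, V⁆ (Subgroup.commutator_normal V V) (Subgroup.commutator_le_left V V) with
      h0 | h0
    · intro a ha b hb
      rw [← commutatorElement_eq_one_iff_mul_comm, ← Subgroup.mem_bot, ← h0]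
      exact Subgroup.commutator_mem_commutator ha hb
    · exfalso
      have : ∀ n, V ≤ derivedSeries G n := fun n => by
        induction n with
        | zero => rw [derivedSeries_zero]; exact le_top
        | succ n ih => rw [derivedSeries_succ, ← h0]; exact Subgroup.commutator_mono ih ih
      obtain ⟨n, hn⟩ : ∃ n, derivedSeries G n = ⊥ := Group.IsSolvable.solvable
      exact hmin.1 (le_bot_iff.1 (hn ▸ this n))
  obtain ⟨p, hp, hpd⟩ := Nat.exists_prime_and_dvd (fun h => hmin.1 (Subgroup.card_eq_one.1 h))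
  haveI := Fact.mk hp
  obtain ⟨x, hx⟩ := exists_prime_orderOf_dvd_card' p hpd
  let W : Subgroup G :=
    { carrier := {g | g ∈ V ∧ g ^ p = 1}
      one_mem' := ⟨V.one_mem, one_pow p⟩
      mul_mem' := fun {a b} ha hb => ⟨mul_mem ha.1 hb.1, by
        rw [(show Commute a b from hc a ha.1 b hb.1).mul_pow, ha.2, hb.2, one_mul]⟩
      inv_mem' := fun {a} ha => ⟨inv_mem ha.1, by rw [inv_pow, ha.2, inv_one]⟩ }
  have hW : W.Normal := ⟨fun a ha g => ⟨(inferInstance : V.Normal).conj_mem a ha.1 g, by
    rw [conj_pow, ha.2, mul_one, mul_inv_cancel]⟩⟩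
  refine ⟨⟨⟨fun a b => Subtype.ext (hc a a.2 b b.2)⟩⟩, p, hp, ?_⟩
  rcases hmin.2 W hW (fun g hg => hg.1) with h0 | h0
  · exfalso
    have : (x : G) ∈ W := ⟨x.2, by rw [← Subgroup.coe_pow, ← hx, pow_orderOf_eq_one, OneMemClass.coe_one]⟩
    rw [h0, Subgroup.mem_bot, OneMemClass.coe_eq_one] at this
    rw [this, orderOf_one] at hx
    exact hp.ne_one hx.symm
  · intro v
    refine ⟨1, Subtype.ext ?_⟩
    have : (v : G) ∈ W := h0.symm ▸ v.2
    rw [pow_one, Subgroup.coe_pow, this.2, OneMemClass.coe_one]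

end Chief

variable {G : Type u} [Group G] [Fintype G]

/-- Splitting of a relative index along a normal subgroup. -/
theorem relIndex_split (C M₀ M : Subgroup G) [M₀.Normal] (h : M₀ ≤ M) :
    C.relIndex M * Nat.card ((C ⊓ M).map (QuotientGroup.mk' M₀)) =
      C.relIndex M₀ * Nat.card (M.map (QuotientGroup.mk' M₀)) := by
  set π := QuotientGroup.mk' M₀
  have hmapcard : ∀ H : Subgroup G,
      Nat.card (H.map π) * Nat.card (H ⊓ M₀ : Subgroup G) = Nat.card H := by
    intro H
    have h1 := Subgroup.card_mul_index (M₀.subgroupOf H)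
    have h2 : M₀.relIndex H = Nat.card (H.map π) := by
      rw [← Subgroup.relIndex_ker (K := H) π, QuotientGroup.ker_mk']
    rw [mul_comm, ← h2, ← h1]
    congr 1
    rw [← Subgroup.inf_subgroupOf_left]
    exact (Nat.card_congr (Subgroup.subgroupOfEquivOfLe inf_le_left).toEquiv).symm
  have hrel : ∀ H : Subgroup G, Nat.card (C ⊓ H : Subgroup G) * C.relIndex H = Nat.card H := by
    intro H
    have := Subgroup.card_mul_index (C.subgroupOf H)
    rw [← Subgroup.inf_subgroupOf_right,
      Nat.card_congr (Subgroup.subgroupOfEquivOfLe (inf_le_right : C ⊓ H ≤ H)).toEquiv] at this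
    rw [← Subgroup.inf_relIndex_right]
    exact this
  have e1 := hmapcard (C ⊓ M)
  rw [inf_assoc, inf_eq_right.2 h] at e1
  have e2 := hmapcard M
  rw [inf_eq_right.2 h] at e2
  have e3 := hrel M
  have e4 := hrel M₀
  apply Nat.eq_of_mul_eq_mul_right (Nat.card_pos (α := (C ⊓ M₀ : Subgroup G)))
  calc C.relIndex M * Nat.card ((C ⊓ M).map π) * Nat.card (C ⊓ M₀ : Subgroup G)
      = C.relIndex M * Nat.card (C ⊓ M : Subgroup G) := by rw [mul_assoc, e1]
    _ = Nat.card (M.map π) * Nat.card M₀ := by rw [mul_comm, e3, e2]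
    _ = C.relIndex M₀ * Nat.card (M.map π) * Nat.card (C ⊓ M₀ : Subgroup G) := by
        rw [← e4]; ring

/-- **The averaged bound.** -/
theorem card_mul_factorization_le [Group.IsSolvable G] (χ : IrrCharacter G) (hqp : Quasiprim χ)
    (p : ℕ) [hp : Fact p.Prime] :
    ∀ (n : ℕ) (M : Subgroup G) (_ : M.Normal) (_ : Fintype M) (θ : IrrCharacter M),
      Nat.card M ≤ n → mult (fun m : M => (χ : G → ℂ) m) θ ≠ 0 →
      Fintype.card G * (charDegree (θ : M → ℂ)).factorization p ≤
        ∑ g : G, ((Subgroup.centralizer ({g} : Set G)).relIndex M).factorization p := by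
  classical
  intro n
  induction n with
  | zero => intro M _ _ θ hn; exact absurd (Nat.le_zero.1 hn) Nat.card_pos.ne'
  | succ n ih =>
    intro M hMn _ θ hn hθ
    by_cases hM1 : M = ⊥
    · subst hM1
      haveI : IsMulCommutative (⊥ : Subgroup G) := ⟨⟨fun a b => Subsingleton.elim _ _⟩⟩
      rw [charDegree_eq_of_map_one (n := 1) (by rw [map_one_eq_one_of_isMulCommutative θ, Nat.cast_one])]
      simp
    -- a maximal normal subgroup below
    obtain ⟨M₀, ⟨hM₀n, hM₀lt⟩, hmax⟩ := Set.Finite.exists_maximal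
      (Set.toFinite {X : Subgroup G | X.Normal ∧ X < M}) ⟨⊥, inferInstance, bot_lt_iff_ne_bot.2 hM1⟩
    haveI := hM₀n
    haveI : Fintype M₀ := Fintype.ofFinite _
    set π := QuotientGroup.mk' M₀ with hπ
    set V := M.map π with hV
    haveI : V.Normal := hMn.map π (QuotientGroup.mk'_surjective M₀)
    have hker : π.ker = M₀ := QuotientGroup.ker_mk' M₀
    have hmin : IsMinIn V := by
      constructor
      · rw [hV, Ne, Subgroup.map_eq_bot_iff, hker]
        exact hM₀lt.not_ge
      intro W hWn hWV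
      have h1 : M₀ ≤ W.comap π := le_trans (le_of_eq hker.symm) (Subgroup.ker_le_comap π W)
      have h2 : W.comap π ≤ M := by
        refine (Subgroup.comap_mono hWV).trans ?_
        rw [hV, Subgroup.comap_map_eq, hker, sup_eq_left.2 hM₀lt.le]
      have hW' : W = (W.comap π).map π :=
        (Subgroup.map_comap_eq_self_of_surjective (QuotientGroup.mk'_surjective M₀) W).symm
      rcases h2.eq_or_lt with h3 | h3
      · right; rw [hW', h3]
      · left
        have h4 := hmax ⟨hWn.comap π, h3⟩ h1
        rw [hW', Subgroup.map_eq_bot_iff, hker]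
        exact h4
    obtain ⟨hVc, r, hr, hVp⟩ := minimal_structure V hmin
    haveI := hVc
    haveI := Fact.mk hr
    -- the constituent below
    let e₀ : M₀.subgroupOf M ≃* M₀ := Subgroup.subgroupOfEquivOfLe hM₀lt.le
    haveI : Fintype (M₀.subgroupOf M) := Fintype.ofFinite _
    obtain ⟨θ₁, hθ₁⟩ := exists_mult_restrict_ne_zero (N := M₀.subgroupOf M) θ
    let θ₀ : IrrCharacter M₀ := irrEquiv e₀ θ₁
    have hθ₀ : mult (fun m : M₀ => (χ : G → ℂ) m) θ₀ ≠ 0 := by
      have h1 := mult_mul_mult_le_restrict (M₀.subgroupOf M).subtype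
        (isCharacter_restrict (isCharacter_coe χ) M) θ θ₁
      have h2 : mult (fun a : M₀.subgroupOf M => (χ : G → ℂ) ((a : M) : G)) θ₁ =
          mult (fun m : M₀ => (χ : G → ℂ) m) θ₀ := by
        simp only [mult]
        rw [← classInner_comp_equiv e₀ (fun m : M₀ => (χ : G → ℂ) m)]
        congr 3
      rw [← h2]
      intro h3
      exact (Nat.mul_ne_zero hθ hθ₁) (Nat.le_zero.1 (h1.trans (le_of_eq h3)))
    have hlt : Nat.card M₀ < Nat.card M := by
      by_contra hh
      exact hM₀lt.ne (Subgroup.eq_of_le_of_card_ge hM₀lt.le (by omega))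
    have hIH := ih M₀ hM₀n inferInstance θ₀ (by omega) hθ₀
    have hT := hqp M₀ hM₀n inferInstance θ₀ hθ₀
    have hd₀ : charDegree (θ₁ : M₀.subgroupOf M → ℂ) = charDegree (θ₀ : M₀ → ℂ) :=
      (charDegree_irrEquiv e₀ θ₁).symm
    -- the multiplicity
    have hinv : ∀ x : M, conjFun (M₀.subgroupOf M) x (θ₁ : M₀.subgroupOf M → ℂ) = θ₁ := by
      intro x
      funext a
      have hx := congrFun (mem_inertia.1 (hT ▸ Subgroup.mem_top (x : G))) (e₀ a)
      rw [conjFun_apply] at hx ⊢
      simp only [θ₀, irrEquiv_apply, MulEquiv.symm_apply_apply] at hx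
      refine Eq.trans (congrArg (θ₁ : M₀.subgroupOf M → ℂ) ?_) hx
      rw [MulEquiv.eq_symm_apply]
      exact Subtype.ext rfl
    set ε := mult (fun a : M₀.subgroupOf M => (θ : M → ℂ) a) θ₁ with hε
    have hdeg : charDegree (θ : M → ℂ) = ε * charDegree (θ₀ : M₀ → ℂ) := by
      rw [← hd₀]
      apply Nat.cast_injective (R := ℂ)
      rw [Nat.cast_mul, coe_charDegree, coe_charDegree, clifford_one θ θ₁ hθ₁, ← hε]
      have hI : inertia (M₀.subgroupOf M) (θ₁ : M₀.subgroupOf M → ℂ) = ⊤ :=
        eq_top_iff.2 fun x _ => mem_inertia.2 (hinv x)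
      rw [hI, Subgroup.index_top, Nat.cast_one, mul_one]
    have hVrel : M₀.relIndex M = Nat.card V := by
      rw [hV, ← Subgroup.relIndex_ker (K := M) π, hker]
    have hεdvd : ε ∣ Nat.card V := hVrel ▸ mult_dvd_index_of_invariant θ₁ hinv θ hθ₁
    have hεsq : ε ^ 2 ≤ Nat.card V := by
      obtain ⟨X, _, _, Z, _, β, hZ, hidx, -, hβ⟩ := exists_multiplicity_character θ₁ hinv θ hθ₁
      rw [hε, ← hβ, ← hVrel, show M₀.relIndex M = (M₀.subgroupOf M).index from rfl, ← hidx]
      exact (charDegree_sq_le_index_center β).trans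
        (Nat.le_of_dvd (Nat.pos_of_ne_zero Subgroup.index_ne_zero_of_finite)
          (Subgroup.index_dvd_of_le hZ))
    obtain ⟨k, hk⟩ := IsPGroup.iff_card.1 hVp
    obtain ⟨c, -, hc⟩ := (Nat.dvd_prime_pow hr).1 (hk ▸ hεdvd)
    -- the images of the centralisers
    set C : G → Subgroup G := fun g => Subgroup.centralizer ({g} : Set G) with hC
    have hsplit : ∀ g, (C g).relIndex M * Nat.card ((C g ⊓ M).map π) =
        (C g).relIndex M₀ * Nat.card V := fun g => relIndex_split (C g) M₀ M hM₀lt.le
    have himg : ∀ g, Nat.card ((C g ⊓ M).map π) ∣ Nat.card V := fun g =>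
      Subgroup.card_dvd_of_le (Subgroup.map_mono inf_le_right)
    choose i hi using fun g => (Nat.dvd_prime_pow hr).1 (hk ▸ himg g)
    have hrel0 : ∀ (g : G) (H : Subgroup G), (C g).relIndex H ≠ 0 := fun g H =>
      Subgroup.index_ne_zero_of_finite (H := (C g).subgroupOf H)
    have hval : ∀ g, ((C g).relIndex M).factorization p + (r ^ i g).factorization p =
        ((C g).relIndex M₀).factorization p + (r ^ k).factorization p := by
      intro g
      have h1 := hsplit g
      rw [(hi g).2, hk] at h1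
      have := congrArg (fun m => m.factorization p) h1
      simpa [Nat.factorization_mul (hrel0 g M) (pow_ne_zero _ hr.ne_zero),
        Nat.factorization_mul (hrel0 g M₀) (pow_ne_zero _ hr.ne_zero)] using this
    have hdegval : (charDegree (θ : M → ℂ)).factorization p =
        (r ^ c).factorization p + (charDegree (θ₀ : M₀ → ℂ)).factorization p := by
      rw [hdeg, hc, Nat.factorization_mul (pow_ne_zero _ hr.ne_zero) (charDegree_pos θ₀).ne',
        Finsupp.add_apply]
    -- the chief factor contributes enough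
    have hlayer : Fintype.card G * c + ∑ g, i g ≤ Fintype.card G * k := by
      by_cases hcen : ∀ g : G, ∀ v : V, quotConj M₀ V g v = v
      · -- a central chief factor has prime order
        have hcyc : ∀ W : Subgroup (G ⧸ M₀), W ≤ V → W = ⊥ ∨ W = V := by
          intro W hW
          refine hmin.2 W ⟨fun w hw x => ?_⟩ hW
          obtain ⟨x, rfl⟩ := QuotientGroup.mk_surjective x
          have := congrArg Subtype.val (hcen x ⟨w, hW hw⟩)
          rw [coe_quotConj] at this
          simp only at this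
          rwa [this]
        obtain ⟨⟨v, hv⟩, hv'⟩ := Subgroup.ne_bot_iff_exists_ne_one.1 hmin.1
        have hv1 : v ≠ 1 := fun h => hv' (Subtype.ext h)
        have hVcyc : IsCyclic V := by
          have h1 := (hcyc _ (Subgroup.zpowers_le.2 hv)).resolve_left
            (by rw [Subgroup.zpowers_eq_bot]; exact hv1)
          rw [← h1]
          infer_instance
        have hf : ∀ x : M, π (x : G) ∈ V := fun x => ⟨x, x.2, rfl⟩
        let fM : M →* V := (π.comp M.subtype).codRestrict V hf
        have hfM : Function.Surjective fM := by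
          rintro ⟨_, x, hx, rfl⟩
          exact ⟨⟨x, hx⟩, rfl⟩
        have hkerM : fM.ker = M₀.subgroupOf M := by
          ext x
          rw [MonoidHom.mem_ker, Subgroup.mem_subgroupOf, Subtype.ext_iff]
          exact QuotientGroup.eq_one_iff (x : G)
        haveI : IsCyclic (M ⧸ M₀.subgroupOf M) :=
          isCyclic_of_surjective ((QuotientGroup.quotientMulEquivOfEq hkerM.symm).trans
            (QuotientGroup.quotientKerEquivOfSurjective fM hfM)).symm.toMonoidHom
            (MulEquiv.surjective _)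
        have h1 := restrict_eq_of_isCyclic θ₁ hinv θ hθ₁ 1
        have hc0 : c = 0 := by
          have h2 : charDegree (θ : M → ℂ) = charDegree (θ₁ : M₀.subgroupOf M → ℂ) := by
            apply Nat.cast_injective (R := ℂ)
            rw [coe_charDegree, coe_charDegree]
            simpa using h1
          rw [hdeg, hd₀, hc] at h2
          have h3 : r ^ c = 1 := Nat.eq_of_mul_eq_mul_right (charDegree_pos θ₀) (by rw [h2, one_mul])
          exact (Nat.pow_eq_one.1 h3).resolve_left hr.ne_one
        rw [hc0, mul_zero, zero_add]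
        calc ∑ g, i g ≤ ∑ _g : G, k := Finset.sum_le_sum fun g _ => (hi g).1
          _ = _ := by rw [Finset.sum_const, Finset.card_univ, smul_eq_mul]
      · push Not at hcen
        have hbound := prod_fix_le_of_minimal M₀ V hmin hVp hcen
        have hfix : ∀ g, r ^ i g ≤ Nat.card {v : V // quotConj M₀ V g v = v} := by
          intro g
          rw [← (hi g).2]
          refine Nat.card_le_card_of_injective (fun x => ⟨⟨x.1, ?_⟩, ?_⟩) fun a b h => ?_
          · obtain ⟨y, hy, hyx⟩ := x.2
            exact ⟨y, hy.2, hyx⟩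
          · obtain ⟨y, hy, hyx⟩ := x.2
            apply Subtype.ext
            rw [coe_quotConj]
            show (g : G ⧸ M₀) * (x : G ⧸ M₀) * (g : G ⧸ M₀)⁻¹ = x
            rw [mul_inv_eq_iff_eq_mul, ← hyx]
            show π g * π y = π y * π g
            rw [← map_mul, ← map_mul, Subgroup.mem_centralizer_singleton_iff.1 hy.1]
          · exact Subtype.ext (congrArg (fun z => ((z.1 : V) : G ⧸ M₀)) h)
        have h1 : r ^ (2 * ∑ g, i g) ≤ r ^ (k * Fintype.card G) := by
          rw [pow_mul r k, ← hk, Finset.mul_sum, ← Finset.prod_pow_eq_pow_sum]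
          refine le_trans (Finset.prod_le_prod' fun g _ => ?_) hbound
          rw [mul_comm, pow_mul]
          exact Nat.pow_le_pow_left (hfix g) 2
        have h2 := (Nat.pow_le_pow_iff_right hr.one_lt).1 h1
        have h3 : 2 * c ≤ k := by
          refine (Nat.pow_le_pow_iff_right hr.one_lt).1 ?_
          rw [mul_comm, pow_mul, ← hc, ← hk]
          exact hεsq
        nlinarith
    rw [hdegval, mul_add]
    have hsum : ∑ g, ((C g).relIndex M).factorization p + ∑ g, (r ^ i g).factorization p =
        ∑ g, ((C g).relIndex M₀).factorization p + Fintype.card G * (r ^ k).factorization p := by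
      rw [← Finset.sum_add_distrib, Finset.sum_congr rfl fun g _ => hval g, Finset.sum_add_distrib,
        Finset.sum_const, Finset.card_univ, smul_eq_mul]
    have hpow : ∀ m : ℕ, (r ^ m).factorization p = m * r.factorization p := fun m => by
      simp [Nat.factorization_pow]
    rw [hpow c]
    rw [hpow k, Finset.sum_congr rfl fun g _ => hpow (i g), ← Finset.sum_mul] at hsum
    nlinarith [Nat.mul_le_mul_right (r.factorization p) hlayer]

/-- **`χ(1)_p` divides some class size**, for quasiprimitive characters of solvable groups. -/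
theorem exists_factorization_le [Group.IsSolvable G] (χ : IrrCharacter G) (hqp : Quasiprim χ)
    (p : ℕ) [Fact p.Prime] :
    ∃ g : G, (charDegree (χ : G → ℂ)).factorization p ≤
      ((Subgroup.centralizer ({g} : Set G)).index).factorization p := by
  classical
  obtain ⟨θ, hθ⟩ := exists_mult_restrict_ne_zero (N := (⊤ : Subgroup G)) χ
  have h := card_mul_factorization_le χ hqp p _ ⊤ inferInstance inferInstance θ le_rfl hθ
  have hd : charDegree (χ : G → ℂ) = charDegree (θ : (⊤ : Subgroup G) → ℂ) := by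
    have h1 := charDegree_dvd_mul_index χ θ hθ
    rw [Subgroup.index_top, mul_one] at h1
    refine Nat.dvd_antisymm h1 ?_
    refine ⟨mult (fun m : (⊤ : Subgroup G) => (χ : G → ℂ) m) θ, ?_⟩
    apply Nat.cast_injective (R := ℂ)
    rw [Nat.cast_mul, coe_charDegree, coe_charDegree, clifford_one χ θ hθ, hqp _ _ _ θ hθ,
      Subgroup.index_top, Nat.cast_one, mul_one, mul_comm]
  simp only [Subgroup.relIndex_top_right] at h
  rw [← hd] at h
  obtain ⟨g, -, hg⟩ := Finset.exists_le_of_sum_le (s := (Finset.univ : Finset G))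
    (f := fun _ => (charDegree (χ : G → ℂ)).factorization p)
    (g := fun g => ((Subgroup.centralizer ({g} : Set G)).index).factorization p) Finset.univ_nonempty
    (by rw [Finset.sum_const, Finset.card_univ, smul_eq_mul]; exact h)
  exact ⟨g, hg⟩

end CfsgLib.MetanilpPrim
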